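import Mathlib

set_option autoImplicit false

namespace Cfsg.Agent.Lib.Helper7.TorAbs

theorem syl_conj {G : Type*} [Group G] [Finite G] (p : ℕ) [Fact p.Prime] (L : Subgroup G)
    (hL : (Nat.card L).factorization p = (Nat.card G).factorization p) (a : G)
    (ha : orderOf a = p) : ∃ g : G, g⁻¹ * a * g ∈ L := by
  obtain ⟨Q'⟩ : Nonempty (Sylow p L) := inferInstance
  have hQ'c : Nat.card Q' = p ^ (Nat.card L).factorization p := Sylow.card_eq_multiplicity Q'
  have hQp : IsPGroup p ((Q' : Subgroup L).map L.subtype) := Q'.isPGroup'.map L.subtype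
  obtain ⟨P, hQP⟩ := hQp.exists_le_sylow
  have hPc : Nat.card P = p ^ (Nat.card G).factorization p := Sylow.card_eq_multiplicity P
  have hQc : Nat.card ((Q' : Subgroup L).map L.subtype) = Nat.card (Q' : Subgroup L) :=
    Subgroup.card_map_of_injective L.subtype_injective
  have hEq : (Q' : Subgroup L).map L.subtype = (P : Subgroup G) := by
    apply Subgroup.eq_of_le_of_card_ge hQP
    rw [hQc]
    apply le_of_eq
    exact hPc.trans ((congrArg (fun n => p ^ n) hL.symm).trans hQ'c.symm)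
  have haP : IsPGroup p (Subgroup.zpowers a) :=
    IsPGroup.of_card (n := 1) (by rw [Nat.card_zpowers, ha, pow_one])
  obtain ⟨P2, hP2⟩ := haP.exists_le_sylow
  obtain ⟨g, hg⟩ := MulAction.exists_smul_eq G P P2
  refine ⟨g, ?_⟩
  have h1 : a ∈ (P2 : Subgroup G) := hP2 (Subgroup.mem_zpowers a)
  rw [← hg, Sylow.coe_subgroup_smul, Subgroup.mem_pointwise_smul_iff_inv_smul_mem, MulAut.smul_def,
    ← map_inv, MulAut.conj_apply, inv_inv, ← hEq] at h1
  obtain ⟨y, -, hy⟩ := h1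
  rw [← hy]
  exact y.2

theorem inv_decomp {G : Type*} [Group G] (t : G) (ht : t * t = 1) (Kc : Subgroup G)
    (hn : ∀ k ∈ Kc, t * k * t ∈ Kc) (hodd : ∀ k ∈ Kc, Odd (orderOf k)) (k : G) (hk : k ∈ Kc) :
    ∃ c ∈ Kc, ∃ i ∈ Kc, k = c * i ∧ t * c * t = c ∧ t * i * t = i⁻¹ := by
  have htinv : t⁻¹ = t := inv_eq_of_mul_eq_one_right ht
  obtain ⟨x, hx⟩ : ∃ x : G, x = k⁻¹ * (t * k * t) := ⟨_, rfl⟩
  have hxK : x ∈ Kc := by
    rw [hx]
    exact mul_mem (inv_mem hk) (hn k hk)
  have hxt : t * x * t = x⁻¹ := by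
    rw [hx]
    have e1 : t * (k⁻¹ * (t * k * t)) * t = t * k⁻¹ * t * k * (t * t) := by group
    have e2 : (k⁻¹ * (t * k * t))⁻¹ = t⁻¹ * k⁻¹ * t⁻¹ * k := by group
    rw [e1, ht, mul_one, e2, htinv]
  obtain ⟨j, hj⟩ := hodd x hxK
  obtain ⟨y, hy⟩ : ∃ y : G, y = x ^ (j + 1) := ⟨_, rfl⟩
  have hyK : y ∈ Kc := by
    rw [hy]
    exact pow_mem hxK _
  have hyy : y * y = x := by
    rw [hy, ← pow_add]
    have e : j + 1 + (j + 1) = orderOf x + 1 := by omega
    rw [e, pow_succ, pow_orderOf_eq_one, one_mul]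
  have hyt : t * y * t = y⁻¹ := by
    have h1 : t * y * t⁻¹ = (t * x * t⁻¹) ^ (j + 1) := by rw [hy, conj_pow]
    rw [htinv] at h1
    rw [h1, hxt, inv_pow, hy]
  refine ⟨k * y, mul_mem hk hyK, y⁻¹, inv_mem hyK, by group, ?_, ?_⟩
  · have e1 : t * (k * y) * t = (t * k * t) * (t * y * t) := by
      have e0 : (t * k * t) * (t * y * t) = t * k * (t * t) * y * t := by group
      rw [e0, ht, mul_one]
      group
    have e2 : t * k * t = k * x := by
      rw [hx]
      group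
    rw [e1, hyt, e2, ← hyy]
    group
  · have e : t * y⁻¹ * t = (t⁻¹ * y * t⁻¹)⁻¹ := by group
    rw [e, htinv, hyt]

theorem comm_of_four {X : Type*} [Group X] [Finite X]
    (H1 : ∀ t : X, t ≠ 1 → t * t = 1 → ∀ x y : X, x * t = t * x → y * t = t * y → x * y = y * x)
    (P : Sylow 2 X) (hP4 : Nat.card P = 4) (hP2 : ∀ x ∈ P, x * x = 1)
    (H3 : ∀ x : X, orderOf x ≠ 3) : ∀ x y : X, x * y = y * x := by
  classical
  have hPab : ∀ s ∈ P, ∀ s' ∈ P, s * s' = s' * s := by
    intro s hs s' hs'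
    have e1 : (s * s')⁻¹ = s * s' := inv_eq_of_mul_eq_one_right (hP2 _ (mul_mem hs hs'))
    have e2 : s⁻¹ = s := inv_eq_of_mul_eq_one_right (hP2 s hs)
    have e3 : s'⁻¹ = s' := inv_eq_of_mul_eq_one_right (hP2 s' hs')
    calc s * s' = (s * s')⁻¹ := e1.symm
      _ = s'⁻¹ * s⁻¹ := mul_inv_rev _ _
      _ = s' * s := by rw [e2, e3]
  obtain ⟨t1, ht1P, ht1⟩ : ∃ t1 ∈ P, t1 ≠ 1 := by
    by_contra hcon
    push Not at hcon
    have hb : (P : Subgroup X) = ⊥ := (Subgroup.eq_bot_iff_forall _).mpr hcon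
    rw [hb, Subgroup.card_bot] at hP4
    omega
  have ht1sq := hP2 t1 ht1P
  have ho1 : orderOf t1 = 2 := orderOf_eq_prime (by rw [pow_two]; exact ht1sq) ht1
  obtain ⟨t2, ht2P, ht2, ht21⟩ : ∃ t2 ∈ P, t2 ≠ 1 ∧ t2 ≠ t1 := by
    by_contra hcon
    push Not at hcon
    have hle : (P : Subgroup X) ≤ Subgroup.zpowers t1 := by
      intro s hs
      by_cases h1 : s = 1
      · rw [h1]
        exact one_mem _
      · rw [hcon s hs h1]
        exact Subgroup.mem_zpowers t1
    have hc := Subgroup.card_le_of_le hle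
    rw [Nat.card_zpowers, ho1] at hc
    omega
  have ht2sq := hP2 t2 ht2P
  have h12P : t1 * t2 ∈ P := mul_mem ht1P ht2P
  have h12 : t1 * t2 ≠ 1 := by
    intro h
    exact ht21 (mul_left_cancel (h.trans ht1sq.symm))
  have h12sq := hP2 _ h12P
  have hcomm12 := hPab t1 ht1P t2 ht2P
  have e3 : t1 * t2 * t1 = t2 := by rw [hcomm12, mul_assoc, ht1sq, mul_one]
  have hinv1 : t1⁻¹ = t1 := inv_eq_of_mul_eq_one_right ht1sq
  have hinv2 : t2⁻¹ = t2 := inv_eq_of_mul_eq_one_right ht2sq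
  have henum : ∀ s ∈ P, s = 1 ∨ s = t1 ∨ s = t2 ∨ s = t1 * t2 := by
    intro s hs
    by_contra hcon
    push Not at hcon
    obtain ⟨c1, c2, c3, c4⟩ := hcon
    have n1 : t2 ∉ ({t1 * t2} : Finset X) := by
      rw [Finset.mem_singleton]
      intro h
      apply ht1
      have h' : 1 * t2 = t1 * t2 := by rw [one_mul]; exact h
      exact (mul_right_cancel h').symm
    have n2 : t1 ∉ ({t2, t1 * t2} : Finset X) := by
      rw [Finset.mem_insert, Finset.mem_singleton]
      rintro (h | h)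
      · exact ht21 h.symm
      · apply ht2
        have h' : t1 * 1 = t1 * t2 := by rw [mul_one]; exact h
        exact (mul_left_cancel h').symm
    have n3 : (1 : X) ∉ ({t1, t2, t1 * t2} : Finset X) := by
      rw [Finset.mem_insert, Finset.mem_insert, Finset.mem_singleton]
      rintro (h | h | h)
      · exact ht1 h.symm
      · exact ht2 h.symm
      · exact h12 h.symm
    have n4 : s ∉ ({1, t1, t2, t1 * t2} : Finset X) := by
      rw [Finset.mem_insert, Finset.mem_insert, Finset.mem_insert, Finset.mem_singleton]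
      rintro (h | h | h | h)
      · exact c1 h
      · exact c2 h
      · exact c3 h
      · exact c4 h
    have hcard : ({s, 1, t1, t2, t1 * t2} : Finset X).card = 5 := by
      rw [Finset.card_insert_of_notMem n4, Finset.card_insert_of_notMem n3,
        Finset.card_insert_of_notMem n2, Finset.card_insert_of_notMem n1, Finset.card_singleton]
    have hsub : (({s, 1, t1, t2, t1 * t2} : Finset X) : Set X) ⊆ ((P : Subgroup X) : Set X) := by
      intro z hz
      rw [Finset.mem_coe, Finset.mem_insert, Finset.mem_insert, Finset.mem_insert, Finset.mem_insert,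
        Finset.mem_singleton] at hz
      rcases hz with rfl | rfl | rfl | rfl | rfl
      · exact hs
      · exact one_mem _
      · exact ht1P
      · exact ht2P
      · exact h12P
    have hle := Set.ncard_le_ncard hsub (Set.toFinite _)
    rw [Set.ncard_coe_finset, hcard] at hle
    have hPc : ((P : Subgroup X) : Set X).ncard = Nat.card P := (Nat.card_coe_set_eq _).symm
    rw [hPc, hP4] at hle
    omega
  have claimA : ∀ x : X, ∀ t0 ∈ P, t0 ≠ 1 → x * t0 = t0 * x → ∀ s ∈ P, x * s = s * x :=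
    fun x t0 h0P h0 hx s hs => H1 t0 h0 (hP2 t0 h0P) x s hx (hPab s hs t0 h0P)
  have three_case : ∀ x : X, x ^ 3 * t1 = t1 * x ^ 3 → ∀ s ∈ P, s * x = x * s := by
    intro x hx3 s hs
    have h3 := claimA (x ^ 3) t1 ht1P ht1 hx3 s hs
    by_cases hd : 3 ∣ orderOf x
    · exfalso
      have hpos : 0 < orderOf x := orderOf_pos x
      obtain ⟨k, hk⟩ := hd
      apply H3 (x ^ k)
      rw [orderOf_pow_of_dvd (by omega) ⟨3, by rw [hk]; ring⟩, hk]
      exact Nat.mul_div_cancel _ (by omega)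
    · have hc : Nat.Coprime 3 (orderOf x) := (Nat.Prime.coprime_iff_not_dvd Nat.prime_three).mpr hd
      obtain ⟨j, hj⟩ := exists_pow_eq_self_of_coprime hc
      have h4 : Commute (x ^ 3) s := h3
      have h5 := h4.pow_left j
      rw [hj] at h5
      exact h5.eq.symm
  have hN : Subgroup.normalizer ((P : Subgroup X) : Set X) ≤ Subgroup.centralizer (P : Set X) := by
    intro x hx
    rw [Subgroup.mem_centralizer_iff]
    have hconj : ∀ s ∈ P, x * s * x⁻¹ ∈ P := fun s hs => (Subgroup.mem_normalizer_iff.mp hx s).mp hs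
    have hfix : ∀ t0 ∈ P, t0 ≠ 1 → x * t0 * x⁻¹ = t0 → ∀ s ∈ P, s * x = x * s := by
      intro t0 h0P h0 he s hs
      exact (claimA x t0 h0P h0 (mul_inv_eq_iff_eq_mul.mp he) s hs).symm
    have hne : ∀ t0 : X, t0 ≠ 1 → x * t0 * x⁻¹ ≠ 1 := by
      intro t0 h0 h
      apply h0
      have e : t0 = x⁻¹ * (x * t0 * x⁻¹) * x := by group
      rw [e, h]
      group
    have s1 : x ^ 3 * t1 * (x ^ 3)⁻¹ = x * (x * (x * t1 * x⁻¹) * x⁻¹) * x⁻¹ := by
      rw [pow_succ, pow_two]
      group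
    have s2 : x * (t1 * t2) * x⁻¹ = (x * t1 * x⁻¹) * (x * t2 * x⁻¹) := by group
    rcases henum _ (hconj t1 ht1P) with e1 | e1 | e1 | e1
    · exact absurd e1 (hne t1 ht1)
    · exact hfix t1 ht1P ht1 e1
    · rcases henum _ (hconj t2 ht2P) with e2 | e2 | e2 | e2
      · exact absurd e2 (hne t2 ht2)
      · refine hfix (t1 * t2) h12P h12 ?_
        rw [s2, e1, e2, hcomm12]
      · exact hfix t2 ht2P ht2 e2
      · have hc3 : x ^ 3 * t1 * (x ^ 3)⁻¹ = t1 := by
          rw [s1, e1, e2, s2, e1, e2, hcomm12, ← mul_assoc, ht2sq, one_mul]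
        exact three_case x (mul_inv_eq_iff_eq_mul.mp hc3)
    · rcases henum _ (hconj t2 ht2P) with e2 | e2 | e2 | e2
      · exact absurd e2 (hne t2 ht2)
      · have hc3 : x ^ 3 * t1 * (x ^ 3)⁻¹ = t1 := by
          rw [s1, e1, s2, e1, e2, e3, e2]
        exact three_case x (mul_inv_eq_iff_eq_mul.mp hc3)
      · exact hfix t2 ht2P ht2 e2
      · exfalso
        apply ht21
        have e : x * t2 * x⁻¹ = x * t1 * x⁻¹ := e2.trans e1.symm
        exact mul_left_cancel (mul_right_cancel e)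
  have hcomp := MonoidHom.ker_transferSylow_isComplement' P hN
  obtain ⟨Kc, hKc⟩ : ∃ Kc : Subgroup X, Kc = (MonoidHom.transferSylow P hN).ker := ⟨_, rfl⟩
  rw [← hKc] at hcomp
  have hKn : Kc.Normal := by
    rw [hKc]
    exact MonoidHom.normal_ker _
  have hcard : Nat.card Kc * Nat.card P = Nat.card X := hcomp.card_mul_card
  have hKodd : ∀ k ∈ Kc, Odd (orderOf k) := by
    intro k hk
    by_contra hev
    rw [Nat.not_odd_iff_even] at hev
    have h2 : 2 ∣ Nat.card Kc := (even_iff_two_dvd.mp hev).trans (Subgroup.orderOf_dvd_natCard Kc hk)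
    have h8 : 2 ^ 3 ∣ Nat.card X := by
      rw [← hcard, hP4]
      obtain ⟨c, hc⟩ := h2
      exact ⟨c, by rw [hc]; ring⟩
    have h9 := P.pow_dvd_card_of_pow_dvd_card h8
    rw [hP4] at h9
    omega
  have hn1 : ∀ k ∈ Kc, t1 * k * t1 ∈ Kc := fun k hk => by
    have h := hKn.conj_mem k hk t1
    rwa [hinv1] at h
  have hn2 : ∀ k ∈ Kc, t2 * k * t2 ∈ Kc := fun k hk => by
    have h := hKn.conj_mem k hk t2
    rwa [hinv2] at h
  have hI : ∀ k ∈ Kc, t1 * k * t1 = k⁻¹ → k = 1 := by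
    intro k hk hk1
    obtain ⟨c, hcK, i, hiK, hki, hc2, hi2⟩ := inv_decomp t2 ht2sq Kc hn2 hKodd k hk
    have hct2 : c * t2 = t2 * c := by
      calc c * t2 = (t2 * c * t2) * t2 := by rw [hc2]
        _ = t2 * c * (t2 * t2) := by group
        _ = t2 * c := by rw [ht2sq, mul_one]
    have hct1 : c * t1 = t1 * c := H1 t2 ht2 ht2sq c t1 hct2 hcomm12
    have hk' : k⁻¹ = c * (t1 * i * t1) := by
      rw [← hk1, hki]
      calc t1 * (c * i) * t1 = (t1 * c) * i * t1 := by group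
        _ = (c * t1) * i * t1 := by rw [hct1]
        _ = c * (t1 * i * t1) := by group
    have hc21 : t2 * t1 = t1 * t2 := hcomm12.symm
    have hi' : t2 * (t1 * i * t1) * t2 = (t1 * i * t1)⁻¹ := by
      calc t2 * (t1 * i * t1) * t2 = (t2 * t1) * i * (t1 * t2) := by group
        _ = (t1 * t2) * i * (t2 * t1) := by rw [hc21]
        _ = t1 * (t2 * i * t2) * t1 := by group
        _ = t1 * i⁻¹ * t1 := by rw [hi2]
        _ = (t1⁻¹ * i * t1⁻¹)⁻¹ := by group
        _ = (t1 * i * t1)⁻¹ := by rw [hinv1]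
    have hi'' : t1 * i * t1 = c⁻¹ * i⁻¹ * c⁻¹ := by
      have e : t1 * i * t1 = c⁻¹ * k⁻¹ := by
        rw [hk']
        group
      rw [e, hki]
      group
    rw [hi''] at hi'
    have hL : t2 * (c⁻¹ * i⁻¹ * c⁻¹) * t2 = c⁻¹ * i * c⁻¹ := by
      have hc2' : t2 * c⁻¹ = c⁻¹ * t2 := by
        calc t2 * c⁻¹ = c⁻¹ * (c * t2) * c⁻¹ := by group
          _ = c⁻¹ * (t2 * c) * c⁻¹ := by rw [hct2]
          _ = c⁻¹ * t2 := by group
      have hi2' : t2 * i⁻¹ * t2 = i := by
        have e : t2 * i⁻¹ * t2 = (t2⁻¹ * i * t2⁻¹)⁻¹ := by group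
        rw [e, hinv2, hi2, inv_inv]
      calc t2 * (c⁻¹ * i⁻¹ * c⁻¹) * t2 = (t2 * c⁻¹) * i⁻¹ * (c⁻¹ * t2) := by group
        _ = (c⁻¹ * t2) * i⁻¹ * (t2 * c⁻¹) := by rw [hc2']
        _ = c⁻¹ * (t2 * i⁻¹ * t2) * c⁻¹ := by group
        _ = c⁻¹ * i * c⁻¹ := by rw [hi2']
    rw [hL] at hi'
    obtain ⟨d, hd⟩ : ∃ d : X, d = c * c := ⟨_, rfl⟩
    have hinvd : i⁻¹ * d * i = d⁻¹ := by
      have e : (c⁻¹ * i⁻¹ * c⁻¹)⁻¹ = c * i * c := by group
      rw [e] at hi'
      rw [hd]
      calc i⁻¹ * (c * c) * i = i⁻¹ * (c * (c * i * c) * c) * (c * c)⁻¹ := by group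
        _ = i⁻¹ * (c * (c⁻¹ * i * c⁻¹) * c) * (c * c)⁻¹ := by rw [hi']
        _ = (c * c)⁻¹ := by group
    have h2 : (i * i)⁻¹ * d * (i * i) = d := by
      calc (i * i)⁻¹ * d * (i * i) = i⁻¹ * (i⁻¹ * d * i) * i := by group
        _ = i⁻¹ * d⁻¹ * i := by rw [hinvd]
        _ = (i⁻¹ * d * i)⁻¹ := by group
        _ = d := by rw [hinvd, inv_inv]
    have hcomm_ii : Commute (i * i) d := by
      show i * i * d = d * (i * i)
      calc i * i * d = i * i * ((i * i)⁻¹ * d * (i * i)) := by rw [h2]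
        _ = d * (i * i) := by group
    obtain ⟨j, hj⟩ := hKodd i hiK
    have hi_pow : (i * i) ^ (j + 1) = i := by
      rw [← pow_two, ← pow_mul]
      have e : 2 * (j + 1) = orderOf i + 1 := by omega
      rw [e, pow_succ, pow_orderOf_eq_one, one_mul]
    have hcomm_i : Commute i d := by
      have h := hcomm_ii.pow_left (j + 1)
      rwa [hi_pow] at h
    have hdd : d * d = 1 := by
      have e : i⁻¹ * d * i = d := by
        calc i⁻¹ * d * i = i⁻¹ * (d * i) := by group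
          _ = i⁻¹ * (i * d) := by rw [hcomm_i.eq]
          _ = d := by group
      rw [e] at hinvd
      exact mul_eq_one_iff_eq_inv.mpr hinvd
    have hc1 : c = 1 := by
      have h4 : c ^ 4 = 1 := by
        have e : c ^ 4 = (c * c) * (c * c) := by
          rw [pow_succ, pow_succ, pow_succ, pow_one, mul_assoc (c * c)]
        rw [e, ← hd]
        exact hdd
      have hdvd := orderOf_dvd_of_pow_eq_one h4
      have hco : Nat.Coprime (orderOf c) (2 ^ 2) :=
        Nat.Coprime.pow_right 2 (Nat.coprime_two_right.mpr (hKodd c hcK))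
      exact orderOf_eq_one_iff.mp (hco.eq_one_of_dvd hdvd)
    have hki' : i = k := by rw [hki, hc1, one_mul]
    rw [hki'] at hi2
    have hk12 : k * (t1 * t2) = (t1 * t2) * k := by
      have e : t1 * (t2 * k * t2) * t1 = k := by
        rw [hi2]
        have e0 : t1 * k⁻¹ * t1 = (t1⁻¹ * k * t1⁻¹)⁻¹ := by group
        rw [e0, hinv1, hk1, inv_inv]
      calc k * (t1 * t2) = (t1 * (t2 * k * t2) * t1) * (t1 * t2) := by rw [e]
        _ = t1 * t2 * k * (t2 * (t1 * t1) * t2) := by group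
        _ = t1 * t2 * k := by rw [ht1sq, mul_one, ht2sq, mul_one]
    have hk1' : k * t1 = t1 * k :=
      H1 (t1 * t2) h12 h12sq k t1 hk12 (by rw [← mul_assoc, ht1sq, one_mul, e3])
    have hkk : k = k⁻¹ := by
      rw [← hk1]
      calc k = k * (t1 * t1) := by rw [ht1sq, mul_one]
        _ = (k * t1) * t1 := by group
        _ = t1 * k * t1 := by rw [hk1']
    have hk2 : k ^ 2 = 1 := by
      rw [pow_two]
      exact mul_eq_one_iff_eq_inv.mpr hkk
    have hdvd := orderOf_dvd_of_pow_eq_one hk2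
    have hco : Nat.Coprime (orderOf k) 2 := Nat.coprime_two_right.mpr (hKodd k hk)
    exact orderOf_eq_one_iff.mp (hco.eq_one_of_dvd hdvd)
  have hK1 : ∀ k ∈ Kc, k * t1 = t1 * k := by
    intro k hk
    obtain ⟨c, hcK, i, hiK, hki, hc1, hi1⟩ := inv_decomp t1 ht1sq Kc hn1 hKodd k hk
    have hi := hI i hiK hi1
    rw [hi, mul_one] at hki
    rw [hki]
    calc c * t1 = (t1 * c * t1) * t1 := by rw [hc1]
      _ = t1 * c * (t1 * t1) := by group
      _ = t1 * c := by rw [ht1sq, mul_one]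
  have hall : ∀ x : X, x * t1 = t1 * x := by
    intro x
    obtain ⟨⟨k, s⟩, hks⟩ := hcomp.2 x
    have h1 := hK1 k.1 k.2
    have h2 := hPab s.1 s.2 t1 ht1P
    have hks' : (k : X) * (s : X) = x := hks
    rw [← hks', mul_assoc, h2, ← mul_assoc, h1, mul_assoc]
  exact fun x y => H1 t1 ht1 ht1sq x y (hall x) (hall y)

end Cfsg.Agent.Lib.Helper7.TorAbs
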