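import Cfsg.Agent.Lib.Helper7.ReeSyl2
import Cfsg.Agent.Lib.Helper7.TorAbs

set_option autoImplicit false
set_option maxHeartbeats 400000

namespace Cfsg.Agent.Lib.Helper7.ReeTorA
open Cfsg.Lie Cfsg.Agent.Lib.Helper7.ChevEngine Cfsg.Agent.Lib.Helper7.ChevTorus
  Cfsg.Agent.Lib.Helper7.ReeFix Cfsg.Agent.Lib.Helper7.ReeMain Cfsg.Agent.Lib.Helper7.ReeSg
  Cfsg.Agent.Lib.Helper7.ReeTorus Cfsg.Agent.Lib.Helper7.ReeTorMem Cfsg.Agent.Lib.Helper7.ReeOrder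
  Cfsg.Agent.Lib.Helper7.ReeBN Cfsg.Agent.Lib.Helper7.ReePerf Cfsg.Agent.Lib.Helper7.ReeH
  Cfsg.Agent.Lib.Helper7.ReeU Cfsg.Agent.Lib.Helper7.ReeFpf
  Cfsg.Agent.Lib.Helper7.ChevRel
  Cfsg.Agent.Lib.Helper7.ReeStab Cfsg.Agent.Lib.Helper7.SL2Hom
  Cfsg.Agent.Lib.Helper7.TwCore Cfsg.Agent.Lib.Helper7.ReeCent Cfsg.Agent.Lib.Helper7.ReeSyl2
  Cfsg.Agent.Lib.Helper7.ReeSyl Cfsg.Agent.Lib.Helper7.ChevBNP Cfsg.Agent.Lib.Helper7.ChevBN3
  Cfsg.Agent.Lib.Helper7.TorAbs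

section
variable {K : Type*} [Field K]

theorem nf [Fintype K] {m : ℕ} (hK : Fintype.card K = 3 ^ (2 * m + 1)) (g : GL chevG2.Idx K)
    (hg : g ∈ twistedG2 K (3 ^ m)) :
    (∃ p : K × K × K, ∃ μ : Kˣ, g = uu m p * th m μ) ∨
    (∃ p : K × K × K, ∃ μ : Kˣ, ∃ p' : K × K × K, g = uu m p * th m μ * n0 K * uu m p') := by
  have fr := frob_of_card hK
  obtain ⟨σ, hσ⟩ := exists_sigma fr
  exact fx_eq hK σ hσ g (twisted_le_Fx fr σ hσ hg)

theorem bru_unique (b1 b2 u1 u2 : GL chevG2.Idx K) (hb1 : b1 ∈ chevG2.borelSubgroup K)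
    (hb2 : b2 ∈ chevG2.borelSubgroup K) (hu1 : u1 ∈ chevG2.posUnipotent K)
    (hu2 : u2 ∈ chevG2.posUnipotent K) (e : b1 * n0 K * u1 = b2 * n0 K * u2) : b1 = b2 := by
  have hz : n0 K * n0 K ∈ chevG2.borelSubgroup K := H_le_B chevG2 n0_sq
  have e1 : (n0 K)⁻¹ * (u2 * u1⁻¹) * n0 K = (n0 K * n0 K)⁻¹ * (b2⁻¹ * b1) * (n0 K * n0 K) := by
    have e0 : b1 = b2 * n0 K * u2 * u1⁻¹ * (n0 K)⁻¹ := by
      rw [← e]
      group
    rw [e0]
    group
  have h1 : (n0 K)⁻¹ * (u2 * u1⁻¹) * n0 K ∈ chevG2.borelSubgroup K := by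
    rw [e1]
    exact mul_mem (mul_mem (inv_mem hz) (mul_mem (inv_mem hb2) hb1)) hz
  have h2 := conj_inv_triv (u2 * u1⁻¹) (mul_mem hu2 (inv_mem hu1)) h1
  have h3 : u2 = u1 := mul_inv_eq_one.mp h2
  rw [h3] at e
  exact mul_right_cancel (mul_right_cancel e)

theorem dS_conj (d : Kˣ) : dS d * wS K * dS d = wS K := by
  have hd : (d : K) ≠ 0 := d.ne_zero
  apply ext2 <;>
    simp only [mul_entry, dS_00, dS_01, dS_10, dS_11, wS_00, wS_01, wS_10, wS_11] <;>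
    field_simp <;> ring

theorem W_inv {m : ℕ} (fr : Frob K m) (ν1 : Kˣ) :
    th m (ν1 ^ 2) * Phi fr (wS K) * th m (ν1 ^ 2) = Phi fr (wS K) := by
  rw [th_sq_Phi fr ν1, ← map_mul, ← map_mul, dS_conj]

theorem th_pow (m : ℕ) (μ : Kˣ) (n : ℕ) : th m μ ^ n = th m (μ ^ n) := by
  induction n with
  | zero => rw [pow_zero, pow_zero, th_one]
  | succ k ih => rw [pow_succ, pow_succ, ih, th_mul]

theorem th_comm (m : ℕ) (μ μ' : Kˣ) : th m μ * th m μ' = th m μ' * th m μ := by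
  rw [← th_mul, ← th_mul, mul_comm]

theorem cent_H [Fintype K] {m : ℕ} (hK : Fintype.card K = 3 ^ (2 * m + 1)) (x h : GL chevG2.Idx K)
    (hx : x ∈ twistedG2 K (3 ^ m)) (hh1 : h ∈ chevG2.diagonalSubgroup K)
    (hhR : h ∈ twistedG2 K (3 ^ m)) (hne : h ≠ 1) (hodd : Odd (orderOf h)) (hc : x * h = h * x) :
    x ∈ chevG2.diagonalSubgroup K := by
  have fr := frob_of_card hK
  obtain ⟨hn0N, -⟩ := n0_map (K := K)
  obtain ⟨ν, rfl⟩ := (mem_H1 hK h).mp (Subgroup.mem_inf.mpr ⟨hh1, hhR⟩)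
  have hsq : th m ν * th m ν ≠ 1 := by
    intro h2
    apply hne
    have hd : orderOf (th m ν) ∣ 2 := orderOf_dvd_of_pow_eq_one (by rw [pow_two]; exact h2)
    have hco : Nat.Coprime (orderOf (th m ν)) 2 := Nat.coprime_two_right.mpr hodd
    exact orderOf_eq_one_iff.mp (hco.eq_one_of_dvd hd)
  have hν : ν ≠ 1 ∧ ν ≠ -1 := by
    constructor
    · rintro rfl
      exact hne (th_one m)
    · rintro rfl
      exact hsq (a_sq m)
  have hU : ∀ p : K × K × K, th m ν * uu m p = uu m p * th m ν → uu m p = 1 := by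
    rintro ⟨t, u, v⟩ hcu
    by_cases hp : t = 0 ∧ u = 0 ∧ v = 0
    · obtain ⟨rfl, rfl, rfl⟩ := hp
      exact uu_zero fr
    · rcases cent_th fr ν t u v hp hcu with h1 | h1
      · exact absurd h1 hν.1
      · exact absurd h1 hν.2
  have hBU : ∀ (b : GL chevG2.Idx K) (p : K × K × K), b ∈ chevG2.borelSubgroup K →
      b * uu m p * b⁻¹ ∈ chevG2.posUnipotent K := fun b p hb => B_norm_U b _ hb (uu_memU m p)
  have hthB : ∀ μ : Kˣ, th m μ ∈ chevG2.borelSubgroup K := fun μ => H_le_B chevG2 (th_memH m μ)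
  have fin : ∀ (q0 : K × K × K) (μ0 : Kˣ),
      (th m ν * uu m q0 * (th m ν)⁻¹) * (th m ν * th m μ0 * th m ν) = uu m q0 * th m μ0 → False := by
    intro q0 μ0 e
    obtain ⟨-, e2⟩ := UH_unique _ _ _ _ (hBU _ q0 (hthB ν)) (uu_memU m q0)
      (mul_mem (mul_mem (th_memH m ν) (th_memH m μ0)) (th_memH m ν)) (th_memH m μ0) e
    apply hsq
    have e3 : th m ν * th m μ0 * th m ν = th m μ0 * (th m ν * th m ν) := by
      rw [th_comm m ν μ0]
      group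
    rw [e3] at e2
    exact mul_eq_left.mp e2
  rcases nf hK x hx with ⟨p, μ, rfl⟩ | ⟨p, μ, p', rfl⟩
  · have e : (th m ν * uu m p * (th m ν)⁻¹) * (th m ν * th m μ) = uu m p * (th m μ * th m ν) := by
      have l : (th m ν * uu m p * (th m ν)⁻¹) * (th m ν * th m μ) = th m ν * (uu m p * th m μ) := by
        group
      rw [l, ← hc]
      group
    obtain ⟨e1, -⟩ := UH_unique _ _ _ _ (hBU _ p (hthB ν)) (uu_memU m p)
      (mul_mem (th_memH m ν) (th_memH m μ)) (mul_mem (th_memH m μ) (th_memH m ν)) e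
    have e2 : th m ν * uu m p = uu m p * th m ν := mul_inv_eq_iff_eq_mul.mp e1
    rw [hU p e2, one_mul]
    exact th_memH m μ
  · exfalso
    have hn0h : th m ν * n0 K = n0 K * th m ν := by
      have e : (th m ν * uu m p * (th m ν)⁻¹ * (th m ν * th m μ)) * n0 K * uu m p' =
          (uu m p * (th m μ * (n0 K * th m ν * (n0 K)⁻¹))) * n0 K *
            ((th m ν)⁻¹ * uu m p' * (th m ν)⁻¹⁻¹) := by
        have l1 : (th m ν * uu m p * (th m ν)⁻¹ * (th m ν * th m μ)) * n0 K * uu m p' =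
            th m ν * (uu m p * th m μ * n0 K * uu m p') := by group
        have l2 : (uu m p * (th m μ * (n0 K * th m ν * (n0 K)⁻¹))) * n0 K *
            ((th m ν)⁻¹ * uu m p' * (th m ν)⁻¹⁻¹) = (uu m p * th m μ * n0 K * uu m p') * th m ν := by
          group
        rw [l1, l2, hc]
      have hb := bru_unique _ _ _ _
        (mul_mem (U_le_B chevG2 (hBU _ p (hthB ν))) (mul_mem (hthB ν) (hthB μ)))
        (mul_mem (U_le_B chevG2 (uu_memU m p)) (H_le_B chevG2 (mul_mem (th_memH m μ)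
          (N_conj_H chevG2 hG2 (n0 K) hn0N _ (th_memH m ν)))))
        (uu_memU m p') (hBU _ p' (inv_mem (hthB ν))) e
      obtain ⟨-, e2⟩ := UH_unique _ _ _ _ (hBU _ p (hthB ν)) (uu_memU m p)
        (mul_mem (th_memH m ν) (th_memH m μ))
        (mul_mem (th_memH m μ) (N_conj_H chevG2 hG2 (n0 K) hn0N _ (th_memH m ν))) hb
      rw [th_comm m ν μ] at e2
      have e3 : th m ν = n0 K * th m ν * (n0 K)⁻¹ := mul_left_cancel e2
      exact eq_mul_inv_iff_mul_eq.mp e3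
    obtain ⟨j, hj⟩ := hodd
    have hνn : ν ^ (2 * j + 1) = 1 := by
      apply th_inj m
      rw [← th_pow, th_one, ← hj, pow_orderOf_eq_one]
    have hν1 : (ν ^ (j + 1)) ^ 2 = ν := by
      rw [← pow_mul]
      have e : (j + 1) * 2 = (2 * j + 1) + 1 := by ring
      rw [e, pow_succ, hνn, one_mul]
    have hW := W_inv fr (ν ^ (j + 1))
    rw [hν1] at hW
    have hWR := Phi_memR fr (wS K)
    rcases nf hK _ hWR with ⟨q0, μ0, eW⟩ | ⟨q0, μ0, q0', eW⟩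
    · rw [eW] at hW
      apply fin q0 μ0
      have l : (th m ν * uu m q0 * (th m ν)⁻¹) * (th m ν * th m μ0 * th m ν) =
          th m ν * (uu m q0 * th m μ0) * th m ν := by group
      rw [l, hW]
    · rw [eW] at hW
      apply fin q0 μ0
      have e : ((th m ν * uu m q0 * (th m ν)⁻¹) * (th m ν * th m μ0 * th m ν)) * n0 K *
          ((th m ν)⁻¹ * uu m q0' * (th m ν)⁻¹⁻¹) = (uu m q0 * th m μ0) * n0 K * uu m q0' := by
        have l1 : ((th m ν * uu m q0 * (th m ν)⁻¹) * (th m ν * th m μ0 * th m ν)) * n0 K *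
            ((th m ν)⁻¹ * uu m q0' * (th m ν)⁻¹⁻¹) =
            (th m ν * uu m q0 * (th m ν)⁻¹) * (th m ν * th m μ0) * (th m ν * n0 K) *
              ((th m ν)⁻¹ * uu m q0' * (th m ν)⁻¹⁻¹) := by group
        have l2 : (th m ν * uu m q0 * (th m ν)⁻¹) * (th m ν * th m μ0) * (n0 K * th m ν) *
              ((th m ν)⁻¹ * uu m q0' * (th m ν)⁻¹⁻¹) =
            th m ν * (uu m q0 * th m μ0 * n0 K * uu m q0') * th m ν := by group
        rw [l1, hn0h, l2, hW]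
      exact bru_unique _ _ _ _
        (mul_mem (U_le_B chevG2 (hBU _ q0 (hthB ν)))
          (mul_mem (mul_mem (hthB ν) (hthB μ0)) (hthB ν)))
        (mul_mem (U_le_B chevG2 (uu_memU m q0)) (hthB μ0))
        (hBU _ q0' (inv_mem (hthB ν))) (uu_memU m q0') e

theorem orbit_all [Fintype K] {m : ℕ} (hm : 1 ≤ m) (hK : Fintype.card K = 3 ^ (2 * m + 1))
    (fr : Frob K m) (α β : K) (h : α ^ 2 + β ^ 2 = -1) (t0 : Z3) (ht0 : t0 ≠ 1) :
    ∃ n ∈ Subgroup.normalizer (((FF fr α β h).range : Subgroup ↥(twistedG2 K (3 ^ m))) : Set ↥(twistedG2 K (3 ^ m))), n * aR fr * n⁻¹ = FF fr α β h t0 := by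
  classical
  have hv := v_norm fr α β h
  have haE : aR fr ∈ (FF fr α β h).range := ⟨gA3, FF_A fr α β h⟩
  obtain ⟨O', hO'⟩ : ∃ O' : Finset Z3, ∀ t, t ∈ O' ↔
      ∃ n ∈ Subgroup.normalizer (((FF fr α β h).range : Subgroup ↥(twistedG2 K (3 ^ m))) : Set ↥(twistedG2 K (3 ^ m))), n * aR fr * n⁻¹ = FF fr α β h t :=
    ⟨Finset.univ.filter (fun t => ∃ n ∈ Subgroup.normalizer (((FF fr α β h).range : Subgroup ↥(twistedG2 K (3 ^ m))) : Set ↥(twistedG2 K (3 ^ m))), n * aR fr * n⁻¹ = FF fr α β h t), fun t => by simp⟩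
  have hch : ∀ t : {t : Z3 // t ∈ O'}, ∃ n ∈ Subgroup.normalizer (((FF fr α β h).range : Subgroup ↥(twistedG2 K (3 ^ m))) : Set ↥(twistedG2 K (3 ^ m))), n * aR fr * n⁻¹ = FF fr α β h t.1 :=
    fun t => (hO' t.1).mp t.2
  choose nn hnnN hnn using hch
  let Ψ : {t : Z3 // t ∈ O'} × ↥(Subgroup.normalizer (((FF fr α β h).range : Subgroup ↥(twistedG2 K (3 ^ m))) : Set ↥(twistedG2 K (3 ^ m))) ⊓ Subgroup.centralizer {aR fr}) → ↥(Subgroup.normalizer (((FF fr α β h).range : Subgroup ↥(twistedG2 K (3 ^ m))) : Set ↥(twistedG2 K (3 ^ m)))) :=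
    fun p => ⟨nn p.1 * (p.2 : ↥(twistedG2 K (3 ^ m))), mul_mem (hnnN p.1) p.2.2.1⟩
  have hs : ∀ (t : {t : Z3 // t ∈ O'}) (s : ↥(Subgroup.normalizer (((FF fr α β h).range : Subgroup ↥(twistedG2 K (3 ^ m))) : Set ↥(twistedG2 K (3 ^ m))) ⊓ Subgroup.centralizer {aR fr})),
      (nn t * (s : ↥(twistedG2 K (3 ^ m)))) * aR fr * (nn t * (s : ↥(twistedG2 K (3 ^ m))))⁻¹ = FF fr α β h t.1 := by
    intro t s
    have hsa : (s : ↥(twistedG2 K (3 ^ m))) * aR fr = aR fr * (s : ↥(twistedG2 K (3 ^ m))) :=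
      Subgroup.mem_centralizer_singleton_iff.mp s.2.2
    have e1 : (nn t * (s : ↥(twistedG2 K (3 ^ m)))) * aR fr * (nn t * (s : ↥(twistedG2 K (3 ^ m))))⁻¹ =
        nn t * ((s : ↥(twistedG2 K (3 ^ m))) * aR fr * (s : ↥(twistedG2 K (3 ^ m)))⁻¹) * (nn t)⁻¹ := by group
    rw [e1, hsa, mul_inv_cancel_right, hnn]
  have hΨ : Function.Bijective Ψ := by
    constructor
    · rintro ⟨t, s⟩ ⟨t', s'⟩ hp
      have h1 : nn t * (s : ↥(twistedG2 K (3 ^ m))) = nn t' * (s' : ↥(twistedG2 K (3 ^ m))) :=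
        congrArg (fun y : ↥(Subgroup.normalizer (((FF fr α β h).range : Subgroup ↥(twistedG2 K (3 ^ m))) : Set ↥(twistedG2 K (3 ^ m)))) => (y : ↥(twistedG2 K (3 ^ m)))) hp
      have h2 := hs t s
      rw [h1, hs t' s'] at h2
      have ht : t' = t := Subtype.ext (FF_inj fr α β h h2)
      subst ht
      have hs' : (s : ↥(twistedG2 K (3 ^ m))) = s' := mul_left_cancel h1
      rw [Subtype.ext hs']
    · rintro ⟨n, hn⟩
      have hy : n * aR fr * n⁻¹ ∈ (FF fr α β h).range := (Subgroup.mem_normalizer_iff.mp hn _).mp haE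
      obtain ⟨t, ht⟩ := hy
      have htO : t ∈ O' := (hO' t).mpr ⟨n, hn, ht.symm⟩
      have hsN : (nn ⟨t, htO⟩)⁻¹ * n ∈ Subgroup.normalizer (((FF fr α β h).range : Subgroup ↥(twistedG2 K (3 ^ m))) : Set ↥(twistedG2 K (3 ^ m))) := mul_mem (inv_mem (hnnN _)) hn
      have hsC : (nn ⟨t, htO⟩)⁻¹ * n ∈ Subgroup.centralizer {aR fr} := by
        rw [Subgroup.mem_centralizer_singleton_iff]
        have e2 : n * aR fr * n⁻¹ = nn ⟨t, htO⟩ * aR fr * (nn ⟨t, htO⟩)⁻¹ := by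
          rw [hnn]
          exact ht.symm
        calc (nn ⟨t, htO⟩)⁻¹ * n * aR fr = (nn ⟨t, htO⟩)⁻¹ * (n * aR fr * n⁻¹) * n := by group
          _ = (nn ⟨t, htO⟩)⁻¹ * (nn ⟨t, htO⟩ * aR fr * (nn ⟨t, htO⟩)⁻¹) * n := by rw [e2]
          _ = aR fr * ((nn ⟨t, htO⟩)⁻¹ * n) := by group
      refine ⟨(⟨t, htO⟩, ⟨_, Subgroup.mem_inf.mpr ⟨hsN, hsC⟩⟩), ?_⟩
      apply Subtype.ext
      show nn ⟨t, htO⟩ * ((nn ⟨t, htO⟩)⁻¹ * n) = n
      group
  have hcard : Nat.card ↥(Subgroup.normalizer (((FF fr α β h).range : Subgroup ↥(twistedG2 K (3 ^ m))) : Set ↥(twistedG2 K (3 ^ m)))) = O'.card * 24 := by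
    rw [← Nat.card_congr (Equiv.ofBijective Ψ hΨ), Nat.card_prod, S0_card hK fr α β h,
      Nat.card_eq_fintype_card, Fintype.card_coe]
  have h1 : gA3 ∈ O' := (hO' _).mpr ⟨1, one_mem _, by rw [FF_A]; group⟩
  have h2 : (1 : Z3) ∉ O' := by
    intro hc
    obtain ⟨n, -, hn⟩ := (hO' _).mp hc
    rw [map_one] at hn
    apply aR_ne fr
    have e : aR fr = n⁻¹ * (n * aR fr * n⁻¹) * n := by group
    rw [e, hn]
    group
  have h3 : ∀ t ∈ O', sgm t ∈ O' := by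
    intro t ht
    obtain ⟨n, hn, hnt⟩ := (hO' _).mp ht
    refine (hO' _).mpr ⟨vR fr α β h * n, mul_mem hv hn, ?_⟩
    rw [← v_conj, ← hnt]
    group
  have h4 : ∃ t ∈ O', t ≠ gA3 := by
    obtain ⟨n, hn, hn1, hn2⟩ := exists_norm_move hm hK fr α β h
    obtain ⟨t, ht⟩ := hn1
    refine ⟨t, (hO' _).mpr ⟨n⁻¹, inv_mem hn, ?_⟩, ?_⟩
    · rw [ht, inv_inv]
    · intro hc
      apply hn2
      rw [← ht, hc, FF_A]
  have h5 : ¬ 16 ∣ O'.card * 24 := by
    rw [← hcard]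
    intro hd
    have hd2 := hd.trans (Subgroup.card_subgroup_dvd_card (Subgroup.normalizer (((FF fr α β h).range : Subgroup ↥(twistedG2 K (3 ^ m))) : Set ↥(twistedG2 K (3 ^ m)))))
    rw [card_ree hK] at hd2
    have h6 := Nat.mod_eq_zero_of_dvd hd2
    have h7 := card_mod16 m
    rw [h6] at h7
    norm_num at h7
  have h7 := comb3' O' h1 h2 h3 h4 h5
  by_contra hcon
  have htO : t0 ∉ O' := fun hc => hcon ((hO' t0).mp hc)
  have hsub : O' ⊆ (Finset.univ.erase (1 : Z3)).erase t0 := by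
    intro s hs
    rw [Finset.mem_erase, Finset.mem_erase]
    exact ⟨fun e => htO (e ▸ hs), fun e => h2 (e ▸ hs), Finset.mem_univ _⟩
  have hle := Finset.card_le_card hsub
  rw [Finset.card_erase_of_mem (Finset.mem_erase.mpr ⟨ht0, Finset.mem_univ _⟩),
    Finset.card_erase_of_mem (Finset.mem_univ _), Finset.card_univ, h7] at hle
  have h8 : Fintype.card Z3 = 8 := rfl
  omega

end

end Cfsg.Agent.Lib.Helper7.ReeTorA
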