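import Cfsg.Agent.Lib.Helper7.ReeTorA

set_option autoImplicit false
set_option maxHeartbeats 400000

namespace Cfsg.Agent.Lib.Helper7.ReeTorB
open Cfsg.Lie Cfsg.Agent.Lib.Helper7.ChevEngine Cfsg.Agent.Lib.Helper7.ChevTorus
  Cfsg.Agent.Lib.Helper7.ReeFix Cfsg.Agent.Lib.Helper7.ReeMain Cfsg.Agent.Lib.Helper7.ReeSg
  Cfsg.Agent.Lib.Helper7.ReeTorus Cfsg.Agent.Lib.Helper7.ReeTorMem Cfsg.Agent.Lib.Helper7.ReeOrder
  Cfsg.Agent.Lib.Helper7.ReeBN Cfsg.Agent.Lib.Helper7.ReePerf Cfsg.Agent.Lib.Helper7.ReeH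
  Cfsg.Agent.Lib.Helper7.ReeU Cfsg.Agent.Lib.Helper7.ReeFpf
  Cfsg.Agent.Lib.Helper7.ChevRel
  Cfsg.Agent.Lib.Helper7.ReeStab Cfsg.Agent.Lib.Helper7.SL2Hom
  Cfsg.Agent.Lib.Helper7.TwCore Cfsg.Agent.Lib.Helper7.ReeCent Cfsg.Agent.Lib.Helper7.ReeSyl2
  Cfsg.Agent.Lib.Helper7.ReeSyl Cfsg.Agent.Lib.Helper7.ChevBNP Cfsg.Agent.Lib.Helper7.ChevBN3
  Cfsg.Agent.Lib.Helper7.TorAbs Cfsg.Agent.Lib.Helper7.ReeTorA

section abs

theorem cent_chain {G : Type*} [Group G] (H : Subgroup G) (hHab : ∀ x ∈ H, ∀ y ∈ H, x * y = y * x)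
    (a : G) (haH : a ∈ H) (hCab : ∀ x y : G, x * a = a * x → y * a = a * y → x * y = y * x)
    (A : Subgroup G) (hAH : A ≤ H) (haA : a ∈ A) :
    Subgroup.centralizer (A : Set G) = Subgroup.centralizer {a} := by
  ext x
  rw [Subgroup.mem_centralizer_iff, Subgroup.mem_centralizer_singleton_iff]
  constructor
  · intro hx
    exact (hx a haA).symm
  · intro hx y hy
    exact (hCab x y hx (hHab y (hAH hy) a haH)).symm

theorem exists_prime_elt {G : Type*} [Group G] [Finite G] (A : Subgroup G) (hA : A ≠ ⊥) :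
    ∃ p : ℕ, p.Prime ∧ p ∣ Nat.card A ∧ ∃ a ∈ A, orderOf a = p := by
  have h1 : Nat.card A ≠ 1 := fun h => hA (Subgroup.card_eq_one.mp h)
  obtain ⟨p, hp, hpd⟩ := Nat.exists_prime_and_dvd h1
  haveI : Fact p.Prime := ⟨hp⟩
  obtain ⟨x, hx⟩ := exists_prime_orderOf_dvd_card' p hpd
  exact ⟨p, hp, hpd, (x : G), x.2, by rw [Subgroup.orderOf_coe]; exact hx⟩

theorem cyc_comm {G : Type*} [Group G] (H : Subgroup G) (hH : IsCyclic H) :
    ∀ x ∈ H, ∀ y ∈ H, x * y = y * x := by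
  obtain ⟨g0, hg0⟩ := hH.exists_generator
  intro x hx y hy
  obtain ⟨i, hi⟩ := Subgroup.mem_zpowers_iff.mp (hg0 ⟨x, hx⟩)
  obtain ⟨j, hj⟩ := Subgroup.mem_zpowers_iff.mp (hg0 ⟨y, hy⟩)
  have e : (⟨x, hx⟩ : H) * ⟨y, hy⟩ = ⟨y, hy⟩ * ⟨x, hx⟩ := by
    rw [← hi, ← hj]
    exact zpow_mul_comm g0 i j
  exact congrArg Subtype.val e

theorem fact1 (m : ℕ) (p : ℕ) (hp : p.Prime) (hp2 : p ≠ 2) (hpd : p ∣ 3 ^ (2 * m + 1) - 1) :
    (3 ^ (2 * m + 1) - 1).factorization p =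
      ((3 ^ (2 * m + 1)) ^ 3 * (3 ^ (2 * m + 1) - 1) * ((3 ^ (2 * m + 1)) ^ 3 + 1)).factorization p := by
  obtain ⟨q, hq⟩ : ∃ q : ℕ, q = 3 ^ (2 * m + 1) := ⟨_, rfl⟩
  rw [← hq] at hpd ⊢
  have hq3 : 3 ≤ q := by
    rw [hq, pow_succ]
    have := Nat.one_le_pow (2 * m) 3 (by norm_num)
    omega
  have h1 : ¬ p ∣ q ^ 3 := by
    intro hd
    have hpq : p ∣ q := hp.dvd_of_dvd_pow hd
    have h := Nat.dvd_sub hpq hpd
    have e : q - (q - 1) = 1 := by omega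
    rw [e] at h
    exact hp.one_lt.ne' (Nat.dvd_one.mp h)
  have h2 : ¬ p ∣ q ^ 3 + 1 := by
    intro hd
    have h3 : p ∣ q ^ 3 - 1 := by
      have e : q ^ 3 - 1 = (q - 1) * (q ^ 2 + q + 1) := by
        obtain ⟨r, rfl⟩ : ∃ r, q = r + 1 := ⟨q - 1, by omega⟩
        apply Nat.sub_eq_of_eq_add
        simp only [Nat.add_sub_cancel]
        ring
      rw [e]
      exact Dvd.dvd.mul_right hpd _
    have h := Nat.dvd_sub hd h3
    have h13 : 1 ≤ q ^ 3 := Nat.one_le_pow _ _ (by omega)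
    have e : q ^ 3 + 1 - (q ^ 3 - 1) = 2 := by omega
    rw [e] at h
    exact hp2 ((Nat.prime_dvd_prime_iff_eq hp Nat.prime_two).mp h)
  have hne1 : q ^ 3 ≠ 0 := by positivity
  have hne2 : q - 1 ≠ 0 := by omega
  have hne3 : q ^ 3 + 1 ≠ 0 := by omega
  rw [Nat.factorization_mul (mul_ne_zero hne1 hne2) hne3, Nat.factorization_mul hne1 hne2,
    Finsupp.add_apply, Finsupp.add_apply, Nat.factorization_eq_zero_of_not_dvd h1,
    Nat.factorization_eq_zero_of_not_dvd h2]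
  omega

end abs

section
variable {K : Type*} [Field K]

theorem card_HR [Fintype K] {m : ℕ} (hK : Fintype.card K = 3 ^ (2 * m + 1)) :
    Nat.card ↥((chevG2.diagonalSubgroup K ⊓ twistedG2 K (3 ^ m)).subgroupOf (twistedG2 K (3 ^ m))) =
      3 ^ (2 * m + 1) - 1 := by
  have hle : chevG2.diagonalSubgroup K ⊓ twistedG2 K (3 ^ m) ≤ twistedG2 K (3 ^ m) := inf_le_right
  rw [Nat.card_congr (Subgroup.subgroupOfEquivOfLe hle).toEquiv, card_H1 hK]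

theorem tor1 [Fintype K] {m : ℕ} (hK : Fintype.card K = 3 ^ (2 * m + 1)) (p : ℕ) (hp : p.Prime)
    (hp2 : p ≠ 2) (hpd : p ∣ 3 ^ (2 * m + 1) - 1) (a : ↥(twistedG2 K (3 ^ m)))
    (ha : orderOf a = p) :
    ∃ g : ↥(twistedG2 K (3 ^ m)), ∀ x : ↥(twistedG2 K (3 ^ m)),
      x * a = a * x ↔
        ((g⁻¹ * x * g : ↥(twistedG2 K (3 ^ m))) : GL chevG2.Idx K) ∈ chevG2.diagonalSubgroup K := by
  haveI : Fact p.Prime := ⟨hp⟩
  have hL : (Nat.card ↥((chevG2.diagonalSubgroup K ⊓ twistedG2 K (3 ^ m)).subgroupOf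
      (twistedG2 K (3 ^ m)))).factorization p =
      (Nat.card ↥(twistedG2 K (3 ^ m))).factorization p := by
    rw [card_HR hK, card_ree hK]
    exact fact1 m p hp hp2 hpd
  obtain ⟨g, hg⟩ := syl_conj p _ hL a ha
  rw [Subgroup.mem_subgroupOf] at hg
  refine ⟨g, fun x => ?_⟩
  have hh1 : ((g⁻¹ * a * g : ↥(twistedG2 K (3 ^ m))) : GL chevG2.Idx K) ∈
      chevG2.diagonalSubgroup K := hg.1
  have hord : orderOf (g⁻¹ * a * g) = p := by
    have h := MulEquiv.orderOf_eq (MulAut.conj g⁻¹) a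
    rw [MulAut.conj_apply, inv_inv] at h
    rw [h, ha]
  have hord' : orderOf ((g⁻¹ * a * g : ↥(twistedG2 K (3 ^ m))) : GL chevG2.Idx K) = p := by
    rw [Subgroup.orderOf_coe]
    exact hord
  have hne : ((g⁻¹ * a * g : ↥(twistedG2 K (3 ^ m))) : GL chevG2.Idx K) ≠ 1 := by
    intro h1
    rw [h1, orderOf_one] at hord'
    exact hp.one_lt.ne hord'
  have hodd : Odd (orderOf ((g⁻¹ * a * g : ↥(twistedG2 K (3 ^ m))) : GL chevG2.Idx K)) := by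
    rw [hord']
    exact hp.odd_of_ne_two hp2
  constructor
  · intro hx
    apply cent_H hK _ _ (g⁻¹ * x * g).2 hh1 (g⁻¹ * a * g).2 hne hodd
    have e : (g⁻¹ * x * g) * (g⁻¹ * a * g) = (g⁻¹ * a * g) * (g⁻¹ * x * g) := by
      calc (g⁻¹ * x * g) * (g⁻¹ * a * g) = g⁻¹ * (x * a) * g := by group
        _ = g⁻¹ * (a * x) * g := by rw [hx]
        _ = (g⁻¹ * a * g) * (g⁻¹ * x * g) := by group
    exact congrArg Subtype.val e
  · intro hx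
    obtain ⟨μ, hμ⟩ := (mem_H1 hK _).mp (Subgroup.mem_inf.mpr ⟨hx, (g⁻¹ * x * g).2⟩)
    obtain ⟨ν, hν⟩ := (mem_H1 hK _).mp hg
    have e : (g⁻¹ * x * g) * (g⁻¹ * a * g) = (g⁻¹ * a * g) * (g⁻¹ * x * g) := by
      apply Subtype.ext
      show ((g⁻¹ * x * g : ↥(twistedG2 K (3 ^ m))) : GL chevG2.Idx K) *
          ((g⁻¹ * a * g : ↥(twistedG2 K (3 ^ m))) : GL chevG2.Idx K) =
        ((g⁻¹ * a * g : ↥(twistedG2 K (3 ^ m))) : GL chevG2.Idx K) *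
          ((g⁻¹ * x * g : ↥(twistedG2 K (3 ^ m))) : GL chevG2.Idx K)
      rw [hμ, hν]
      exact th_comm m μ ν
    calc x * a = g * ((g⁻¹ * x * g) * (g⁻¹ * a * g)) * g⁻¹ := by group
      _ = g * ((g⁻¹ * a * g) * (g⁻¹ * x * g)) * g⁻¹ := by rw [e]
      _ = a * x := by group

theorem cent_cyc [Fintype K] {m : ℕ} (hK : Fintype.card K = 3 ^ (2 * m + 1))
    (a g : ↥(twistedG2 K (3 ^ m)))
    (hg : ∀ x : ↥(twistedG2 K (3 ^ m)), x * a = a * x ↔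
      ((g⁻¹ * x * g : ↥(twistedG2 K (3 ^ m))) : GL chevG2.Idx K) ∈ chevG2.diagonalSubgroup K) :
    IsCyclic ↥(Subgroup.centralizer ({a} : Set ↥(twistedG2 K (3 ^ m)))) ∧
      Nat.card ↥(Subgroup.centralizer ({a} : Set ↥(twistedG2 K (3 ^ m)))) = 3 ^ (2 * m + 1) - 1 := by
  have hle : chevG2.diagonalSubgroup K ⊓ twistedG2 K (3 ^ m) ≤ twistedG2 K (3 ^ m) := inf_le_right
  have hLmem : ∀ h : ↥(twistedG2 K (3 ^ m)),
      h ∈ (chevG2.diagonalSubgroup K ⊓ twistedG2 K (3 ^ m)).subgroupOf (twistedG2 K (3 ^ m)) ↔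
        (h : GL chevG2.Idx K) ∈ chevG2.diagonalSubgroup K := fun h => by
    rw [Subgroup.mem_subgroupOf]
    exact ⟨fun hh => hh.1, fun hh => ⟨hh, h.2⟩⟩
  have hmem : ∀ h : ↥((chevG2.diagonalSubgroup K ⊓ twistedG2 K (3 ^ m)).subgroupOf
      (twistedG2 K (3 ^ m))),
      g * (h : ↥(twistedG2 K (3 ^ m))) * g⁻¹ ∈
        Subgroup.centralizer ({a} : Set ↥(twistedG2 K (3 ^ m))) := by
    intro h
    rw [Subgroup.mem_centralizer_singleton_iff, hg]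
    have e : g⁻¹ * (g * (h : ↥(twistedG2 K (3 ^ m))) * g⁻¹) * g = (h : ↥(twistedG2 K (3 ^ m))) := by
      group
    rw [e]
    exact (hLmem _).mp h.2
  let f : ↥((chevG2.diagonalSubgroup K ⊓ twistedG2 K (3 ^ m)).subgroupOf (twistedG2 K (3 ^ m))) →*
      ↥(Subgroup.centralizer ({a} : Set ↥(twistedG2 K (3 ^ m)))) :=
    MonoidHom.mk' (fun h => ⟨g * (h : ↥(twistedG2 K (3 ^ m))) * g⁻¹, hmem h⟩) (by
      intro h h'
      apply Subtype.ext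
      show g * ((h * h' : ↥((chevG2.diagonalSubgroup K ⊓ twistedG2 K (3 ^ m)).subgroupOf
        (twistedG2 K (3 ^ m)))) : ↥(twistedG2 K (3 ^ m))) * g⁻¹ =
        (g * (h : ↥(twistedG2 K (3 ^ m))) * g⁻¹) * (g * (h' : ↥(twistedG2 K (3 ^ m))) * g⁻¹)
      rw [Subgroup.coe_mul]
      group)
  have hinj : Function.Injective f := by
    intro h h' e
    have e1 : g * (h : ↥(twistedG2 K (3 ^ m))) * g⁻¹ = g * (h' : ↥(twistedG2 K (3 ^ m))) * g⁻¹ :=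
      congrArg Subtype.val e
    exact Subtype.ext (mul_left_cancel (mul_right_cancel e1))
  have hsurj : Function.Surjective f := by
    intro x
    have hx := (hg x.1).mp (Subgroup.mem_centralizer_singleton_iff.mp x.2)
    refine ⟨⟨g⁻¹ * x.1 * g, (hLmem _).mpr hx⟩, ?_⟩
    apply Subtype.ext
    show g * (g⁻¹ * x.1 * g) * g⁻¹ = x.1
    group
  haveI : IsCyclic ↥(chevG2.diagonalSubgroup K ⊓ twistedG2 K (3 ^ m)) := cyclic_H1 hK
  haveI : IsCyclic ↥((chevG2.diagonalSubgroup K ⊓ twistedG2 K (3 ^ m)).subgroupOf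
      (twistedG2 K (3 ^ m))) :=
    isCyclic_of_surjective (Subgroup.subgroupOfEquivOfLe hle).symm.toMonoidHom
      (Subgroup.subgroupOfEquivOfLe hle).symm.surjective
  refine ⟨isCyclic_of_surjective f hsurj, ?_⟩
  rw [← Nat.card_congr (Equiv.ofBijective f ⟨hinj, hsurj⟩)]
  exact card_HR hK

theorem part1 [Fintype K] {m : ℕ} (hm : 1 ≤ m) (hK : Fintype.card K = 3 ^ (2 * m + 1))
    (H : Subgroup ↥(twistedG2 K (3 ^ m))) (hH : IsCyclic H)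
    (hHc : Nat.card H = (3 ^ (2 * m + 1) - 1) / 2) :
    IsCyclic ↥(Subgroup.centralizer (H : Set ↥(twistedG2 K (3 ^ m)))) ∧
      Nat.card ↥(Subgroup.centralizer (H : Set ↥(twistedG2 K (3 ^ m)))) = 3 ^ (2 * m + 1) - 1 ∧
      ∀ A : Subgroup ↥(twistedG2 K (3 ^ m)), A ≤ H → A ≠ ⊥ →
        Subgroup.centralizer (A : Set ↥(twistedG2 K (3 ^ m))) =
          Subgroup.centralizer (H : Set ↥(twistedG2 K (3 ^ m))) := by
  have hHab := cyc_comm H hH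
  obtain ⟨k, hk⟩ : ∃ k, 3 ^ (2 * m + 1) = 4 * k + 3 := by
    have h9 : 3 ^ (2 * m + 1) % 4 = 3 := by
      rw [pow_succ, pow_mul, Nat.mul_mod, Nat.pow_mod]
      norm_num
    exact ⟨3 ^ (2 * m + 1) / 4, by omega⟩
  have hhalf : (3 ^ (2 * m + 1) - 1) / 2 = 2 * k + 1 := by omega
  have key : ∀ A : Subgroup ↥(twistedG2 K (3 ^ m)), A ≤ H → A ≠ ⊥ →
      ∃ a ∈ A, ∃ g : ↥(twistedG2 K (3 ^ m)), ∀ x : ↥(twistedG2 K (3 ^ m)),
        x * a = a * x ↔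
          ((g⁻¹ * x * g : ↥(twistedG2 K (3 ^ m))) : GL chevG2.Idx K) ∈ chevG2.diagonalSubgroup K := by
    intro A hAH hA
    obtain ⟨p, hp, hpd, a, haA, ha⟩ := exists_prime_elt A hA
    have hpH : p ∣ 2 * k + 1 := by
      rw [← hhalf, ← hHc]
      exact hpd.trans (Subgroup.card_dvd_of_le hAH)
    have hp2 : p ≠ 2 := by
      rintro rfl
      omega
    have hpq : p ∣ 3 ^ (2 * m + 1) - 1 := by
      have e : 3 ^ (2 * m + 1) - 1 = (2 * k + 1) * 2 := by omega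
      rw [e]
      exact Dvd.dvd.mul_right hpH _
    obtain ⟨g, hg⟩ := tor1 hK p hp hp2 hpq a ha
    exact ⟨a, haA, g, hg⟩
  have hCab : ∀ (a g : ↥(twistedG2 K (3 ^ m))), (∀ x : ↥(twistedG2 K (3 ^ m)),
        x * a = a * x ↔
          ((g⁻¹ * x * g : ↥(twistedG2 K (3 ^ m))) : GL chevG2.Idx K) ∈ chevG2.diagonalSubgroup K) →
      ∀ x y : ↥(twistedG2 K (3 ^ m)), x * a = a * x → y * a = a * y → x * y = y * x := by
    intro a g hg x y hx hy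
    obtain ⟨μ, hμ⟩ := (mem_H1 hK _).mp (Subgroup.mem_inf.mpr ⟨(hg x).mp hx, (g⁻¹ * x * g).2⟩)
    obtain ⟨ν, hν⟩ := (mem_H1 hK _).mp (Subgroup.mem_inf.mpr ⟨(hg y).mp hy, (g⁻¹ * y * g).2⟩)
    have e : (g⁻¹ * x * g) * (g⁻¹ * y * g) = (g⁻¹ * y * g) * (g⁻¹ * x * g) := by
      apply Subtype.ext
      show ((g⁻¹ * x * g : ↥(twistedG2 K (3 ^ m))) : GL chevG2.Idx K) *
          ((g⁻¹ * y * g : ↥(twistedG2 K (3 ^ m))) : GL chevG2.Idx K) =
        ((g⁻¹ * y * g : ↥(twistedG2 K (3 ^ m))) : GL chevG2.Idx K) *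
          ((g⁻¹ * x * g : ↥(twistedG2 K (3 ^ m))) : GL chevG2.Idx K)
      rw [hμ, hν]
      exact th_comm m μ ν
    calc x * y = g * ((g⁻¹ * x * g) * (g⁻¹ * y * g)) * g⁻¹ := by group
      _ = g * ((g⁻¹ * y * g) * (g⁻¹ * x * g)) * g⁻¹ := by rw [e]
      _ = y * x := by group
  have hHne : H ≠ ⊥ := by
    intro hb
    rw [hb, Subgroup.card_bot, hhalf] at hHc
    have h27 : 3 ^ (2 * 1 + 1) ≤ 3 ^ (2 * m + 1) := Nat.pow_le_pow_right (by norm_num) (by omega)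
    norm_num at h27
    omega
  obtain ⟨a, haH, g, hg⟩ := key H le_rfl hHne
  have hcH : Subgroup.centralizer (H : Set ↥(twistedG2 K (3 ^ m))) = Subgroup.centralizer {a} :=
    cent_chain H hHab a haH (hCab a g hg) H le_rfl haH
  refine ⟨?_, ?_, ?_⟩
  · rw [hcH]
    exact (cent_cyc hK a g hg).1
  · rw [hcH]
    exact (cent_cyc hK a g hg).2
  · intro A hAH hA
    obtain ⟨a', ha'A, g', hg'⟩ := key A hAH hA
    rw [cent_chain H hHab a' (hAH ha'A) (hCab a' g' hg') A hAH ha'A,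
      cent_chain H hHab a' (hAH ha'A) (hCab a' g' hg') H le_rfl (hAH ha'A)]

end

end Cfsg.Agent.Lib.Helper7.ReeTorB
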