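import Cfsg.Agent.Lib.Helper7.ReeTorB
import Cfsg.Agent.Lib.Helper14.ClassSize
import Cfsg.Agent.Lib.Helper14.PSL2
import Cfsg.Agent.S0276

set_option autoImplicit false
set_option maxHeartbeats 400000

namespace Cfsg.Agent.Lib.Helper7.ReeTorC
open Cfsg.Lie Cfsg.Agent.Lib.Helper7.ChevEngine Cfsg.Agent.Lib.Helper7.ChevTorus
  Cfsg.Agent.Lib.Helper7.ReeFix Cfsg.Agent.Lib.Helper7.ReeMain Cfsg.Agent.Lib.Helper7.ReeSg
  Cfsg.Agent.Lib.Helper7.ReeTorus Cfsg.Agent.Lib.Helper7.ReeTorMem Cfsg.Agent.Lib.Helper7.ReeOrder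
  Cfsg.Agent.Lib.Helper7.ReeBN Cfsg.Agent.Lib.Helper7.ReePerf Cfsg.Agent.Lib.Helper7.ReeH
  Cfsg.Agent.Lib.Helper7.ReeU Cfsg.Agent.Lib.Helper7.ReeFpf
  Cfsg.Agent.Lib.Helper7.ChevRel
  Cfsg.Agent.Lib.Helper7.ReeStab Cfsg.Agent.Lib.Helper7.SL2Hom
  Cfsg.Agent.Lib.Helper7.TwCore Cfsg.Agent.Lib.Helper7.ReeCent Cfsg.Agent.Lib.Helper7.ReeSyl2
  Cfsg.Agent.Lib.Helper7.ReeSyl Cfsg.Agent.Lib.Helper7.ChevBNP Cfsg.Agent.Lib.Helper7.ChevBN3
  Cfsg.Agent.Lib.Helper7.TorAbs Cfsg.Agent.Lib.Helper7.ReeTorA Cfsg.Agent.Lib.Helper7.ReeTorB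
  Cfsg.Agent.Lib.Helper14.GL2Conj Cfsg.Agent.Lib.Helper14.SL2Odd Cfsg.Agent.Lib.Helper14.PSL2
  Cfsg.Agent.Lib.Helper14.ClassSize

section sl2
variable {K : Type*} [Field K]

theorem eig_pow (g : S2 K) (l x y : K) (h0 : g 0 0 * x + g 0 1 * y = l * x)
    (h1 : g 1 0 * x + g 1 1 * y = l * y) (n : ℕ) :
    (g ^ n) 0 0 * x + (g ^ n) 0 1 * y = l ^ n * x ∧
      (g ^ n) 1 0 * x + (g ^ n) 1 1 * y = l ^ n * y := by
  induction n with
  | zero =>
    rw [pow_zero, pow_zero]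
    simp
  | succ k ih =>
    obtain ⟨i0, i1⟩ := ih
    rw [pow_succ, pow_succ]
    simp only [mul_entry]
    constructor
    · linear_combination ((g ^ k) 0 0) * h0 + ((g ^ k) 0 1) * h1 + l * i0
    · linear_combination ((g ^ k) 1 0) * h0 + ((g ^ k) 1 1) * h1 + l * i1

theorem no_root [Fintype K] (p : ℕ) (hp : p.Prime) (hp3 : p ≠ 3)
    (hpq : ¬ p ∣ Fintype.card K - 1) (hodd : Fintype.card K % 2 = 1) (h3 : (3 : K) = 0)
    (g : S2 K) (hns : g ∉ Subgroup.center (S2 K)) (hgp : g ^ p ∈ Subgroup.center (S2 K)) (l : K)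
    (hl : l * (tr2 g - l) = 1) : False := by
  have hτ : tr2 g = g 0 0 + g 1 1 := rfl
  have hdet := det_eq g
  rw [hτ] at hl
  obtain ⟨x, y, hxy, h0, h1⟩ : ∃ x y : K, ¬ (x = 0 ∧ y = 0) ∧
      g 0 0 * x + g 0 1 * y = l * x ∧ g 1 0 * x + g 1 1 * y = l * y := by
    by_cases hv : g 0 1 = 0 ∧ l = g 0 0
    · by_cases hv' : g 1 0 = 0 ∧ l = g 1 1
      · exfalso
        apply hns
        rw [center_iff]
        exact ⟨hv.1, hv'.1, hv.2.symm.trans hv'.2⟩
      · refine ⟨l - g 1 1, g 1 0, ?_, ?_, ?_⟩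
        · rintro ⟨e1, e2⟩
          exact hv' ⟨e2, sub_eq_zero.mp e1⟩
        · linear_combination hl - hdet
        · ring
    · refine ⟨g 0 1, l - g 0 0, ?_, ?_, ?_⟩
      · rintro ⟨e1, e2⟩
        exact hv ⟨e1, sub_eq_zero.mp e2⟩
      · ring
      · linear_combination hl - hdet
  obtain ⟨e0, e1⟩ := eig_pow g l x y h0 h1 p
  obtain ⟨c01, c10, c00⟩ := (center_iff _).mp hgp
  rw [c01, zero_mul, add_zero] at e0
  rw [c10, zero_mul, zero_add, ← c00] at e1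
  have hs : (g ^ p) 0 0 = l ^ p := by
    by_cases hx : x = 0
    · have hy : y ≠ 0 := fun hy => hxy ⟨hx, hy⟩
      exact mul_right_cancel₀ hy e1
    · exact mul_right_cancel₀ hx e0
  have hdp := det_eq (g ^ p)
  rw [c01, zero_mul, sub_zero, ← c00, hs] at hdp
  have hl0 : l ≠ 0 := by
    rintro rfl
    rw [zero_mul] at hl
    exact zero_ne_one hl
  have h2p : l ^ (2 * p) = 1 := by
    rw [two_mul, pow_add]
    exact hdp
  have hq1 : l ^ (Fintype.card K - 1) = 1 := FiniteField.pow_card_sub_one_eq_one l hl0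
  have hgcd : Nat.gcd (2 * p) (Fintype.card K - 1) = 2 := by
    have hco : Nat.Coprime p (Fintype.card K - 1) := (Nat.Prime.coprime_iff_not_dvd hp).mpr hpq
    rw [Nat.Coprime.gcd_mul_right_cancel 2 hco]
    exact Nat.gcd_eq_left (Nat.dvd_of_mod_eq_zero (by omega))
  have hl2 : l ^ 2 = 1 := by
    rw [← hgcd]
    exact pow_gcd_eq_one.mpr ⟨h2p, hq1⟩
  have hτ2 : tr2 g ^ 2 = 4 := by
    have e : tr2 g = 2 * l := by
      rw [hτ]
      linear_combination (l - (g 0 0 + g 1 1)) * hl2 + l * hl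
    rw [e]
    linear_combination 4 * hl2
  haveI : Fact (Nat.Prime 3) := ⟨Nat.prime_three⟩
  haveI : CharP K 3 := (CharP.charP_iff_prime_eq_zero Nat.prime_three).mpr (by exact_mod_cast h3)
  have hsc := pow_char_scalar 3 g hτ2
  have hc3 : g ^ 3 ∈ Subgroup.center (S2 K) := (center_iff _).mpr ((isScalarMat_iff _).mp hsc)
  apply hns
  have hco : Nat.Coprime 3 p := (Nat.coprime_primes Nat.prime_three hp).mpr (Ne.symm hp3)
  have hb := Nat.gcd_eq_gcd_ab 3 p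
  rw [Nat.Coprime.gcd_eq_one hco, Nat.cast_one] at hb
  have e : g = (g ^ 3) ^ (Nat.gcdA 3 p) * (g ^ p) ^ (Nat.gcdB 3 p) := by
    rw [← zpow_natCast, ← zpow_natCast, ← zpow_mul, ← zpow_mul, ← zpow_add, ← hb, zpow_one]
  rw [e]
  exact mul_mem (zpow_mem hc3 _) (zpow_mem hgp _)

theorem comm_of_comm (g y1 y2 : S2 K) (hb : g 0 1 ≠ 0) (h1 : y1 * g = g * y1)
    (h2 : y2 * g = g * y2) : y1 * y2 = y2 * y1 := by
  have P : ∀ y : S2 K, y * g = g * y → y 0 1 * g 1 0 = g 0 1 * y 1 0 ∧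
      g 0 1 * (y 0 0 - y 1 1) = y 0 1 * (g 0 0 - g 1 1) := by
    intro y hy
    have e00 := congrArg (fun z : S2 K => z 0 0) hy
    have e01 := congrArg (fun z : S2 K => z 0 1) hy
    simp only [mul_entry] at e00 e01
    constructor
    · linear_combination e00
    · linear_combination e01
  obtain ⟨P1, Q1⟩ := P y1 h1
  obtain ⟨P2, Q2⟩ := P y2 h2
  apply ext2
  · apply mul_left_cancel₀ hb
    simp only [mul_entry]
    linear_combination (-(y1 0 1)) * P2 + (y2 0 1) * P1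
  · apply mul_left_cancel₀ hb
    simp only [mul_entry]
    linear_combination (y2 0 1) * Q1 - (y1 0 1) * Q2
  · apply mul_left_cancel₀ (mul_ne_zero hb hb)
    simp only [mul_entry]
    linear_combination (g 0 1 * y1 1 0) * Q2 - (y2 0 1 * (g 0 0 - g 1 1)) * P1 -
      (g 0 1 * y2 1 0) * Q1 + (y1 0 1 * (g 0 0 - g 1 1)) * P2
  · apply mul_left_cancel₀ hb
    simp only [mul_entry]
    linear_combination (-(y2 0 1)) * P1 + (y1 0 1) * P2

theorem tr_zero_of_anti (g y : S2 K) (h3 : (3 : K) = 0)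
    (h : ∀ i : Fin 2, (y * g) i 0 = -1 * (g * y) i 0 ∧ (y * g) i 1 = -1 * (g * y) i 1) :
    tr2 g = 0 := by
  have hdet := det_eq y
  obtain ⟨E00, E01⟩ := h 0
  obtain ⟨E10, E11⟩ := h 1
  simp only [mul_entry] at E00 E01 E10 E11
  show g 0 0 + g 1 1 = 0
  linear_combination (g 0 0 + g 1 1) * h3 - (y 1 1 * E00 - y 1 0 * E01 - y 0 1 * E10 + y 0 0 * E11) +
    2 * (g 0 0 + g 1 1) * hdet

theorem card_cent_sl2 [Fintype K] (hodd : Fintype.card K % 2 = 1) (g0 : S2 K)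
    (hirr : ∀ l : K, l * (tr2 g0 - l) ≠ 1) :
    Nat.card ↥(Subgroup.centralizer ({g0} : Set (S2 K))) = Fintype.card K + 1 := by
  have h2 : (2 : K) ≠ 0 := two_ne_zero_of_odd hodd
  have hτ : tr2 g0 ^ 2 ≠ 4 := by
    intro h4
    apply hirr (tr2 g0 / 2)
    field_simp
    linear_combination h4
  have hns : ¬ IsScalarMat (g0 : Matrix (Fin 2) (Fin 2) K) := not_scalar_of_trace g0 hτ
  have hcls : {h : S2 K | IsConj g0 h} = {h : S2 K | tr2 h = tr2 g0} := by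
    ext h
    constructor
    · intro hc
      exact tr2_of_isConj hc
    · intro (htr : tr2 h = tr2 g0)
      exact conj_of_trace hodd g0 h hns (not_scalar_of_trace h (by rw [htr]; exact hτ)) htr.symm hτ
  have hidx := index_centralizer_eq_ncard g0
  rw [hcls] at hidx
  haveI : IsEmpty {p : K // p * (tr2 g0 - p) = 1} := ⟨fun x => hirr x.1 x.2⟩
  have hcnt : Set.ncard {h : S2 K | tr2 h = tr2 g0} = Fintype.card K * (Fintype.card K - 1) := by
    have h1 := card_trace_eq (F := K) (tr2 g0)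
    have h0 : Nat.card {p : K // p * (tr2 g0 - p) = 1} = 0 := Nat.card_of_isEmpty
    rw [h0, zero_mul, zero_add] at h1
    rw [← h1, ← Nat.card_coe_set_eq]
    rfl
  rw [hcnt] at hidx
  have hmul := Subgroup.card_mul_index (Subgroup.centralizer ({g0} : Set (S2 K)))
  rw [hidx, Cfsg.Agent.S0276.card_SL2 (F := K) (q := Fintype.card K) rfl] at hmul
  have hq : 2 ≤ Fintype.card K := Fintype.one_lt_card
  have hpos : 0 < Fintype.card K * (Fintype.card K - 1) := Nat.mul_pos (by omega) (by omega)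
  apply Nat.eq_of_mul_eq_mul_right hpos
  rw [hmul]
  ring

end sl2

end Cfsg.Agent.Lib.Helper7.ReeTorC
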