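import Cfsg.Agent.Lib.Helper7.ReeTorC

set_option autoImplicit false
set_option maxHeartbeats 400000

namespace Cfsg.Agent.Lib.Helper7.ReeTorD
open Cfsg.Lie Cfsg.Agent.Lib.Helper7.ChevEngine Cfsg.Agent.Lib.Helper7.ChevTorus
  Cfsg.Agent.Lib.Helper7.ReeFix Cfsg.Agent.Lib.Helper7.ReeMain Cfsg.Agent.Lib.Helper7.ReeSg
  Cfsg.Agent.Lib.Helper7.ReeTorus Cfsg.Agent.Lib.Helper7.ReeTorMem Cfsg.Agent.Lib.Helper7.ReeOrder
  Cfsg.Agent.Lib.Helper7.ReeBN Cfsg.Agent.Lib.Helper7.ReePerf Cfsg.Agent.Lib.Helper7.ReeH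
  Cfsg.Agent.Lib.Helper7.ReeU Cfsg.Agent.Lib.Helper7.ReeFpf
  Cfsg.Agent.Lib.Helper7.ChevRel
  Cfsg.Agent.Lib.Helper7.ReeStab Cfsg.Agent.Lib.Helper7.SL2Hom
  Cfsg.Agent.Lib.Helper7.TwCore Cfsg.Agent.Lib.Helper7.ReeCent Cfsg.Agent.Lib.Helper7.ReeSyl2
  Cfsg.Agent.Lib.Helper7.ReeSyl Cfsg.Agent.Lib.Helper7.ChevBNP Cfsg.Agent.Lib.Helper7.ChevBN3
  Cfsg.Agent.Lib.Helper7.TorAbs Cfsg.Agent.Lib.Helper7.ReeTorA Cfsg.Agent.Lib.Helper7.ReeTorB
  Cfsg.Agent.Lib.Helper7.ReeTorC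
  Cfsg.Agent.Lib.Helper14.GL2Conj Cfsg.Agent.Lib.Helper14.SL2Odd Cfsg.Agent.Lib.Helper14.PSL2
  Cfsg.Agent.Lib.Helper14.ClassSize

section abs

theorem conj_comm {G : Type*} [Group G] (g u v : G) (h : u * v = v * u) :
    (g⁻¹ * u * g) * (g⁻¹ * v * g) = (g⁻¹ * v * g) * (g⁻¹ * u * g) := by
  calc (g⁻¹ * u * g) * (g⁻¹ * v * g) = g⁻¹ * (u * v) * g := by group
    _ = g⁻¹ * (v * u) * g := by rw [h]
    _ = (g⁻¹ * v * g) * (g⁻¹ * u * g) := by group

theorem conj_comm' {G : Type*} [Group G] (g u v : G)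
    (h : (g⁻¹ * u * g) * (g⁻¹ * v * g) = (g⁻¹ * v * g) * (g⁻¹ * u * g)) : u * v = v * u := by
  calc u * v = g * ((g⁻¹ * u * g) * (g⁻¹ * v * g)) * g⁻¹ := by group
    _ = g * ((g⁻¹ * v * g) * (g⁻¹ * u * g)) * g⁻¹ := by rw [h]
    _ = v * u := by group

theorem orderOf_conj' {G : Type*} [Group G] (g a : G) : orderOf (g⁻¹ * a * g) = orderOf a := by
  have h := MulEquiv.orderOf_eq (MulAut.conj g⁻¹) a
  rw [MulAut.conj_apply, inv_inv] at h
  exact h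

theorem card_cent_conj {G : Type*} [Group G] (g a : G) :
    Nat.card ↥(Subgroup.centralizer ({g⁻¹ * a * g} : Set G)) =
      Nat.card ↥(Subgroup.centralizer ({a} : Set G)) := by
  have h1 : ∀ x : ↥(Subgroup.centralizer ({g⁻¹ * a * g} : Set G)),
      g * x.1 * g⁻¹ ∈ Subgroup.centralizer ({a} : Set G) := by
    intro x
    rw [Subgroup.mem_centralizer_singleton_iff]
    have hx := Subgroup.mem_centralizer_singleton_iff.mp x.2
    calc g * x.1 * g⁻¹ * a = g * (x.1 * (g⁻¹ * a * g)) * g⁻¹ := by group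
      _ = g * ((g⁻¹ * a * g) * x.1) * g⁻¹ := by rw [hx]
      _ = a * (g * x.1 * g⁻¹) := by group
  have h2 : ∀ y : ↥(Subgroup.centralizer ({a} : Set G)),
      g⁻¹ * y.1 * g ∈ Subgroup.centralizer ({g⁻¹ * a * g} : Set G) := by
    intro y
    rw [Subgroup.mem_centralizer_singleton_iff]
    exact conj_comm g y.1 a (Subgroup.mem_centralizer_singleton_iff.mp y.2)
  exact Nat.card_congr
    { toFun := fun x => ⟨g * x.1 * g⁻¹, h1 x⟩
      invFun := fun y => ⟨g⁻¹ * y.1 * g, h2 y⟩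
      left_inv := fun x => by
        apply Subtype.ext
        show g⁻¹ * (g * x.1 * g⁻¹) * g = x.1
        group
      right_inv := fun y => by
        apply Subtype.ext
        show g * (g⁻¹ * y.1 * g) * g⁻¹ = y.1
        group }

theorem fact3 (m : ℕ) : (3 ^ ((2 * m + 1) * 3)).factorization 3 =
    ((3 ^ (2 * m + 1)) ^ 3 * (3 ^ (2 * m + 1) - 1) * ((3 ^ (2 * m + 1)) ^ 3 + 1)).factorization 3 := by
  have hq1 : 1 ≤ 3 ^ (2 * m + 1) := Nat.one_le_pow _ _ (by norm_num)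
  have hq3 : 3 ∣ 3 ^ (2 * m + 1) := dvd_pow_self 3 (by omega)
  have h1 : ¬ 3 ∣ 3 ^ (2 * m + 1) - 1 := by
    intro hd
    have h := Nat.dvd_sub hq3 hd
    have e : 3 ^ (2 * m + 1) - (3 ^ (2 * m + 1) - 1) = 1 := by omega
    rw [e] at h
    norm_num at h
  have h2 : ¬ 3 ∣ (3 ^ (2 * m + 1)) ^ 3 + 1 := by
    intro hd
    have h33 : 3 ∣ (3 ^ (2 * m + 1)) ^ 3 := dvd_pow hq3 (by norm_num)
    have h := (Nat.dvd_add_right h33).mp hd
    norm_num at h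
  have hne1 : (3 ^ (2 * m + 1)) ^ 3 ≠ 0 := by positivity
  have hne2 : 3 ^ (2 * m + 1) - 1 ≠ 0 := by
    have h31 : 3 ^ 1 ≤ 3 ^ (2 * m + 1) := Nat.pow_le_pow_right (by norm_num) (by omega)
    omega
  have hne3 : (3 ^ (2 * m + 1)) ^ 3 + 1 ≠ 0 := by omega
  rw [Nat.factorization_mul (mul_ne_zero hne1 hne2) hne3, Nat.factorization_mul hne1 hne2,
    Finsupp.add_apply, Finsupp.add_apply, Nat.factorization_eq_zero_of_not_dvd h1,
    Nat.factorization_eq_zero_of_not_dvd h2, ← pow_mul]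
  omega

end abs

section
variable {K : Type*} [Field K]

theorem ord_form [Fintype K] {m : ℕ} (hK : Fintype.card K = 3 ^ (2 * m + 1)) (fr : Frob K m)
    (p : ℕ) (hp : p.Prime) (hp2 : p ≠ 2) (a' : GL chevG2.Idx K)
    (haR : a' ∈ twistedG2 K (3 ^ m)) (hc : th m (-1 : Kˣ) * a' = a' * th m (-1 : Kˣ))
    (hord : a' ^ p = 1) : ∃ g0 : S2 K, a' = Phi fr g0 := by
  obtain ⟨g, hg | hg⟩ := (mem_M_iff fr _).mp (cent_mem_M hK fr _ haR hc)
  · exact ⟨g, hg⟩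
  · exfalso
    have hcomm : Commute (th m (-1 : Kˣ)) (Phi fr g) := a_comm_Phi fr g
    rw [hg, hcomm.mul_pow, ← map_pow] at hord
    obtain ⟨j, hj⟩ := hp.odd_of_ne_two hp2
    have e : th m (-1 : Kˣ) ^ p = th m (-1) := by
      rw [hj, pow_succ, pow_mul, pow_two, a_sq, one_pow, one_mul]
    rw [e] at hord
    exact a_ne fr (key_inj fr _ (Or.inr rfl) _ hord).1

theorem three_zero' {m : ℕ} (fr : Frob K m) : (3 : K) = 0 := by
  have e : (3 : K) = ((3 : ℕ) : K) := by norm_num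
  rw [e]
  exact fr.h3

theorem g0_props [Fintype K] {m : ℕ} (hK : Fintype.card K = 3 ^ (2 * m + 1)) (fr : Frob K m)
    (p : ℕ) (hp : p.Prime) (hp2 : p ≠ 2) (hp3 : p ≠ 3) (hpq : ¬ p ∣ 3 ^ (2 * m + 1) - 1)
    (g0 : S2 K) (hne : Phi fr g0 ≠ 1) (hord : Phi fr g0 ^ p = 1) :
    tr2 g0 ≠ 0 ∧ (∀ l : K, l * (tr2 g0 - l) ≠ 1) ∧ g0 0 1 ≠ 0 := by
  have h3 := three_zero' fr
  have hodd : Fintype.card K % 2 = 1 := by
    rw [hK]
    exact Nat.odd_iff.mp (Odd.pow (by decide))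
  have hns : g0 ∉ Subgroup.center (S2 K) := fun hc => hne (Phi_center fr g0 hc)
  have hgp : g0 ^ p ∈ Subgroup.center (S2 K) := by
    have h : Phi fr (g0 ^ p) = 1 := by
      rw [map_pow]
      exact hord
    obtain ⟨hz, -⟩ := Phi_ker fr (g0 ^ p) (Or.inl h)
    exact (center_iff _).mpr hz
  have hirr : ∀ l : K, l * (tr2 g0 - l) ≠ 1 := fun l hl =>
    no_root p hp hp3 (by rw [hK]; exact hpq) hodd h3 g0 hns hgp l hl
  refine ⟨?_, hirr, ?_⟩
  · intro htr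
    have hsq := sq_eq_negOne_of_trace_zero g0 htr
    have hc : (negOne : S2 K) ∈ Subgroup.center (S2 K) := by
      rw [center_iff]
      refine ⟨?_, ?_, ?_⟩ <;> simp [negOne]
    have h2 : Phi fr g0 ^ 2 = 1 := by
      rw [pow_two, ← map_mul, hsq]
      exact Phi_center fr _ hc
    have hd2 := orderOf_dvd_of_pow_eq_one h2
    have hdp := orderOf_dvd_of_pow_eq_one hord
    have hco : Nat.Coprime 2 p := (Nat.coprime_primes Nat.prime_two hp).mpr (Ne.symm hp2)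
    have h1 : orderOf (Phi fr g0) ∣ 1 := by
      rw [← Nat.Coprime.gcd_eq_one hco]
      exact Nat.dvd_gcd hd2 hdp
    exact hne (orderOf_eq_one_iff.mp (Nat.dvd_one.mp h1))
  · intro hb
    apply hirr (g0 0 0)
    have hdet := det_eq g0
    rw [hb, zero_mul, sub_zero] at hdet
    show g0 0 0 * (g0 0 0 + g0 1 1 - g0 0 0) = 1
    rw [add_sub_cancel_left]
    exact hdet

theorem all_inv [Fintype K] {m : ℕ} (hm : 1 ≤ m) (hK : Fintype.card K = 3 ^ (2 * m + 1))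
    (fr : Frob K m) (t : ↥(twistedG2 K (3 ^ m))) (ht1 : t ≠ 1) (ht2 : t * t = 1) :
    ∃ g : ↥(twistedG2 K (3 ^ m)), g⁻¹ * t * g = aR fr := by
  have hodd : Fintype.card K % 2 = 1 := by
    rw [hK]
    exact Nat.odd_iff.mp (Odd.pow (by decide))
  obtain ⟨α, β, h⟩ := Cfsg.Agent.Lib.Helper7.ReeGen.sum_two_sq hodd (-1 : K)
  obtain ⟨Q, hQ⟩ := E_sylow hK fr α β h
  have htP : IsPGroup 2 (Subgroup.zpowers t) :=
    IsPGroup.of_card (n := 1) (by
      rw [Nat.card_zpowers, orderOf_eq_prime (by rw [pow_two]; exact ht2) ht1, pow_one])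
  obtain ⟨S, hS⟩ := htP.exists_le_sylow
  obtain ⟨g, hg⟩ := MulAction.exists_smul_eq ↥(twistedG2 K (3 ^ m)) Q S
  have h1 : t ∈ (S : Subgroup ↥(twistedG2 K (3 ^ m))) := hS (Subgroup.mem_zpowers t)
  rw [← hg, Sylow.coe_subgroup_smul, Subgroup.mem_pointwise_smul_iff_inv_smul_mem, MulAut.smul_def,
    ← map_inv, MulAut.conj_apply, inv_inv, hQ] at h1
  obtain ⟨t0, ht0⟩ := h1
  have ht0ne : t0 ≠ 1 := by
    rintro rfl
    rw [map_one] at ht0
    apply ht1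
    have e : t = g * (g⁻¹ * t * g) * g⁻¹ := by group
    rw [e, ← ht0]
    group
  obtain ⟨n, -, hn⟩ := orbit_all hm hK fr α β h t0 ht0ne
  refine ⟨g * n, ?_⟩
  have e : (g * n)⁻¹ * t * (g * n) = n⁻¹ * (g⁻¹ * t * g) * n := by group
  rw [e, ← ht0, ← hn]
  group

theorem UH_pow (m : ℕ) (p0 : K × K × K) (μ : Kˣ) (n : ℕ) :
    ∃ u' ∈ chevG2.posUnipotent K, (uu m p0 * th m μ) ^ n = u' * th m (μ ^ n) := by
  induction n with
  | zero => exact ⟨1, one_mem _, by rw [pow_zero, pow_zero, th_one, mul_one]⟩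
  | succ k ih =>
    obtain ⟨u', hu', e⟩ := ih
    refine ⟨u' * (th m (μ ^ k) * uu m p0 * (th m (μ ^ k))⁻¹),
      mul_mem hu' (B_norm_U _ _ (H_le_B chevG2 (th_memH m _)) (uu_memU m p0)), ?_⟩
    rw [pow_succ, e, pow_succ, th_mul]
    group

theorem no3 [Fintype K] {m : ℕ} (hK : Fintype.card K = 3 ^ (2 * m + 1)) (p : ℕ) (hp : p.Prime)
    (hp3 : p ≠ 3) (hpq : ¬ p ∣ 3 ^ (2 * m + 1) - 1) (a' x : ↥(twistedG2 K (3 ^ m)))
    (ha : orderOf a' = p) (hx : orderOf x = 3) (hc : x * a' = a' * x) : False := by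
  have fr := frob_of_card hK
  haveI : Fact (Nat.Prime 3) := ⟨Nat.prime_three⟩
  have hle : chevG2.posUnipotent K ⊓ twistedG2 K (3 ^ m) ≤ twistedG2 K (3 ^ m) := inf_le_right
  have hcU : Nat.card ↥((chevG2.posUnipotent K ⊓ twistedG2 K (3 ^ m)).subgroupOf
      (twistedG2 K (3 ^ m))) = 3 ^ ((2 * m + 1) * 3) := by
    rw [Nat.card_congr (Subgroup.subgroupOfEquivOfLe hle).toEquiv, (ree_main hK).2, ← pow_mul]
  have hL : (Nat.card ↥((chevG2.posUnipotent K ⊓ twistedG2 K (3 ^ m)).subgroupOf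
      (twistedG2 K (3 ^ m)))).factorization 3 =
      (Nat.card ↥(twistedG2 K (3 ^ m))).factorization 3 := by
    rw [hcU, card_ree hK]
    exact fact3 m
  obtain ⟨g, hg⟩ := syl_conj 3 _ hL x hx
  have hgU : ((g⁻¹ * x * g : ↥(twistedG2 K (3 ^ m))) : GL chevG2.Idx K) ∈ chevG2.posUnipotent K :=
    (Subgroup.mem_subgroupOf.mp hg).1
  have hu1 : ((g⁻¹ * x * g : ↥(twistedG2 K (3 ^ m))) : GL chevG2.Idx K) ≠ 1 := by
    intro h1
    have h2 : g⁻¹ * x * g = 1 := Subtype.ext h1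
    have h3 := orderOf_conj' g x
    rw [h2, orderOf_one, hx] at h3
    norm_num at h3
  have hcb : (g⁻¹ * a' * g) * (g⁻¹ * x * g) = (g⁻¹ * x * g) * (g⁻¹ * a' * g) :=
    conj_comm g a' x hc.symm
  have hcb' : ((g⁻¹ * a' * g : ↥(twistedG2 K (3 ^ m))) : GL chevG2.Idx K) *
      ((g⁻¹ * x * g : ↥(twistedG2 K (3 ^ m))) : GL chevG2.Idx K) =
      ((g⁻¹ * x * g : ↥(twistedG2 K (3 ^ m))) : GL chevG2.Idx K) *
      ((g⁻¹ * a' * g : ↥(twistedG2 K (3 ^ m))) : GL chevG2.Idx K) := congrArg Subtype.val hcb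
  have hbB : ((g⁻¹ * a' * g : ↥(twistedG2 K (3 ^ m))) : GL chevG2.Idx K) ∈
      chevG2.borelSubgroup K := by
    apply key_ree hK _ _ (g⁻¹ * a' * g).2 hgU _ hu1
    rw [hcb', mul_inv_cancel_right]
    exact hgU
  have hbp : ((g⁻¹ * a' * g : ↥(twistedG2 K (3 ^ m))) : GL chevG2.Idx K) ^ p = 1 := by
    have h1 : (g⁻¹ * a' * g) ^ p = 1 := by
      rw [← ha, ← orderOf_conj' g a']
      exact pow_orderOf_eq_one _
    have h2 := congrArg Subtype.val h1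
    rwa [Subgroup.coe_pow] at h2
  rcases nf hK _ (g⁻¹ * a' * g).2 with ⟨p0, μ, e⟩ | ⟨p0, μ, p0', e⟩
  · rw [e] at hbp
    obtain ⟨u', hu', e2⟩ := UH_pow m p0 μ p
    rw [hbp] at e2
    have e3 : (1 : GL chevG2.Idx K) * 1 = u' * th m (μ ^ p) := by rw [mul_one]; exact e2
    obtain ⟨-, e4⟩ := UH_unique _ _ _ _ (one_mem _) hu' (one_mem _) (th_memH m _) e3
    have hμp : μ ^ p = 1 := by
      apply th_inj m
      rw [th_one]
      exact e4.symm
    have hμ1 : (μ : K) ^ p = 1 := by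
      rw [← Units.val_pow_eq_pow_val, hμp, Units.val_one]
    have hμq : (μ : K) ^ (Fintype.card K - 1) = 1 :=
      FiniteField.pow_card_sub_one_eq_one (μ : K) μ.ne_zero
    have hco : Nat.Coprime p (Fintype.card K - 1) := by
      rw [hK]
      exact (Nat.Prime.coprime_iff_not_dvd hp).mpr hpq
    have hμ : (μ : K) = 1 := by
      have h1 := pow_gcd_eq_one.mpr ⟨hμ1, hμq⟩
      rwa [Nat.Coprime.gcd_eq_one hco, pow_one] at h1
    have hμ' : μ = 1 := Units.ext hμ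
    rw [hμ', th_one, mul_one] at e
    have hbL : g⁻¹ * a' * g ∈ (chevG2.posUnipotent K ⊓ twistedG2 K (3 ^ m)).subgroupOf
        (twistedG2 K (3 ^ m)) := by
      rw [Subgroup.mem_subgroupOf]
      refine ⟨?_, (g⁻¹ * a' * g).2⟩
      rw [e]
      exact uu_memU m p0
    have hd := Subgroup.orderOf_dvd_natCard _ hbL
    rw [orderOf_conj' g a', ha, hcU] at hd
    exact hp3 ((Nat.prime_dvd_prime_iff_eq hp Nat.prime_three).mp (hp.dvd_of_dvd_pow hd))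
  · apply n0_not_B (K := K)
    have e2 : n0 K = (uu m p0 * th m μ)⁻¹ *
        ((g⁻¹ * a' * g : ↥(twistedG2 K (3 ^ m))) : GL chevG2.Idx K) * (uu m p0')⁻¹ := by
      rw [e]
      group
    rw [e2]
    exact mul_mem (mul_mem (inv_mem (mul_mem (U_le_B chevG2 (uu_memU m p0))
      (H_le_B chevG2 (th_memH m μ)))) hbB) (inv_mem (U_le_B chevG2 (uu_memU m p0')))

theorem syl2_of_cent [Fintype K] {m : ℕ} (hm : 1 ≤ m) (hK : Fintype.card K = 3 ^ (2 * m + 1))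
    (p : ℕ) (hp : p.Prime) (hp2 : p ≠ 2) (a' : ↥(twistedG2 K (3 ^ m))) (ha : orderOf a' = p)
    (h4 : 4 ∣ Nat.card ↥(Subgroup.centralizer ({a'} : Set ↥(twistedG2 K (3 ^ m)))))
    (P : Sylow 2 ↥(Subgroup.centralizer ({a'} : Set ↥(twistedG2 K (3 ^ m))))) :
    Nat.card P = 4 ∧ ∀ x ∈ P, x * x = 1 := by
  have hPm : IsPGroup 2 ((P : Subgroup ↥(Subgroup.centralizer ({a'} : Set ↥(twistedG2 K (3 ^ m))))).map
      (Subgroup.subtype _)) := P.isPGroup'.map _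
  obtain ⟨S, hS⟩ := hPm.exists_le_sylow
  have hcm : Nat.card ↥((P : Subgroup ↥(Subgroup.centralizer ({a'} : Set ↥(twistedG2 K (3 ^ m))))).map
      (Subgroup.subtype _)) = Nat.card P :=
    Subgroup.card_map_of_injective (Subgroup.subtype_injective _)
  have hS8 := syl2_card hK S
  have hexp : ∀ x ∈ P, x * x = 1 := by
    intro x hx
    have h1 : (x : ↥(twistedG2 K (3 ^ m))) ∈ (S : Subgroup ↥(twistedG2 K (3 ^ m))) :=
      hS (Subgroup.mem_map_of_mem _ hx)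
    exact Subtype.ext (syl2_exp hK S _ h1)
  refine ⟨?_, hexp⟩
  have hdvd : Nat.card P ∣ 8 := by
    rw [← hcm, ← hS8]
    exact Subgroup.card_dvd_of_le hS
  have h4' : 2 ^ 2 ∣ Nat.card P := P.pow_dvd_card_of_pow_dvd_card (by norm_num; exact h4)
  have hne : Nat.card P ≠ 8 := by
    intro h8
    have hEq : (P : Subgroup ↥(Subgroup.centralizer ({a'} : Set ↥(twistedG2 K (3 ^ m))))).map
        (Subgroup.subtype _) = (S : Subgroup ↥(twistedG2 K (3 ^ m))) :=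
      Subgroup.eq_of_le_of_card_ge hS (by rw [hcm, h8, hS8])
    have hmem : a' ∈ Subgroup.centralizer ((S : Subgroup ↥(twistedG2 K (3 ^ m))) :
        Set ↥(twistedG2 K (3 ^ m))) := by
      rw [← hEq, Subgroup.mem_centralizer_iff]
      rintro y ⟨x, -, rfl⟩
      exact Subgroup.mem_centralizer_singleton_iff.mp x.2
    rw [(syl2_main hm hK S).1] at hmem
    have hd := Subgroup.orderOf_dvd_natCard _ hmem
    rw [ha, hS8] at hd
    have h23 : (8 : ℕ) = 2 ^ 3 := by norm_num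
    rw [h23] at hd
    exact hp2 ((Nat.prime_dvd_prime_iff_eq hp Nat.prime_two).mp (hp.dvd_of_dvd_pow hd))
  obtain ⟨c, hc⟩ := h4'
  rw [hc] at hdvd hne ⊢
  have hc2 : c ∣ 2 := by
    have h8 : (8 : ℕ) = 2 ^ 2 * 2 := by norm_num
    rw [h8] at hdvd
    exact (Nat.mul_dvd_mul_iff_left (by norm_num)).mp hdvd
  have hle := Nat.le_of_dvd (by norm_num) hc2
  have hc0 : c ≠ 0 := by
    rintro rfl
    norm_num at hc2
  interval_cases c
  · exact absurd rfl hc0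
  · norm_num
  · exact absurd (by norm_num) hne

end

end Cfsg.Agent.Lib.Helper7.ReeTorD
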