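import Cfsg.Agent.Lib.Helper7.ReeTorD

set_option autoImplicit false
set_option maxHeartbeats 400000

namespace Cfsg.Agent.Lib.Helper7.ReeTorE
open Cfsg.Lie Cfsg.Agent.Lib.Helper7.ChevEngine Cfsg.Agent.Lib.Helper7.ChevTorus
  Cfsg.Agent.Lib.Helper7.ReeFix Cfsg.Agent.Lib.Helper7.ReeMain Cfsg.Agent.Lib.Helper7.ReeSg
  Cfsg.Agent.Lib.Helper7.ReeTorus Cfsg.Agent.Lib.Helper7.ReeTorMem Cfsg.Agent.Lib.Helper7.ReeOrder
  Cfsg.Agent.Lib.Helper7.ReeBN Cfsg.Agent.Lib.Helper7.ReePerf Cfsg.Agent.Lib.Helper7.ReeH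
  Cfsg.Agent.Lib.Helper7.ReeU Cfsg.Agent.Lib.Helper7.ReeFpf
  Cfsg.Agent.Lib.Helper7.ChevRel
  Cfsg.Agent.Lib.Helper7.ReeStab Cfsg.Agent.Lib.Helper7.SL2Hom
  Cfsg.Agent.Lib.Helper7.TwCore Cfsg.Agent.Lib.Helper7.ReeCent Cfsg.Agent.Lib.Helper7.ReeSyl2
  Cfsg.Agent.Lib.Helper7.ReeSyl Cfsg.Agent.Lib.Helper7.ChevBNP Cfsg.Agent.Lib.Helper7.ChevBN3
  Cfsg.Agent.Lib.Helper7.TorAbs Cfsg.Agent.Lib.Helper7.ReeTorA Cfsg.Agent.Lib.Helper7.ReeTorB
  Cfsg.Agent.Lib.Helper7.ReeTorC Cfsg.Agent.Lib.Helper7.ReeTorD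
  Cfsg.Agent.Lib.Helper14.GL2Conj Cfsg.Agent.Lib.Helper14.SL2Odd Cfsg.Agent.Lib.Helper14.PSL2
  Cfsg.Agent.Lib.Helper14.ClassSize

section
variable {K : Type*} [Field K]

noncomputable def Psi {m : ℕ} (fr : Frob K m) : M2 × S2 K →* ↥(twistedG2 K (3 ^ m)) :=
  (zf (aR fr) (aR_sq fr)).noncommCoprod (PhiR fr) (by
    intro i y
    rcases z2_cases i with rfl | rfl
    · rw [map_one]
      exact Commute.one_left _
    · rw [zf_gen]
      exact aR_comm fr y)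

theorem Psi_apply {m : ℕ} (fr : Frob K m) (i : M2) (y : S2 K) :
    Psi fr (i, y) = zf (aR fr) (aR_sq fr) i * PhiR fr y := rfl

theorem Psi_comm_a {m : ℕ} (fr : Frob K m) (z : M2 × S2 K) :
    Psi fr z * aR fr = aR fr * Psi fr z := by
  have e : aR fr = Psi fr (Multiplicative.ofAdd 1, 1) := by
    rw [Psi_apply, zf_gen, map_one, mul_one]
  rw [e, ← map_mul, ← map_mul]
  congr 1
  obtain ⟨i, y⟩ := z
  exact Prod.ext (mul_comm _ _) ((mul_one y).trans (one_mul y).symm)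

theorem negOne_center : (negOne : S2 K) ∈ Subgroup.center (S2 K) := by
  rw [center_iff]
  refine ⟨?_, ?_, ?_⟩ <;> simp [negOne]

theorem pair_form [Fintype K] {m : ℕ} (hK : Fintype.card K = 3 ^ (2 * m + 1)) (fr : Frob K m)
    (g0 : S2 K) (htr : tr2 g0 ≠ 0) (x : ↥(twistedG2 K (3 ^ m)))
    (hxa : x * aR fr = aR fr * x) (hxb : x * PhiR fr g0 = PhiR fr g0 * x) :
    ∃ (i : M2) (y : S2 K), y * g0 = g0 * y ∧ x = Psi fr (i, y) := by
  have h3 := three_zero' fr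
  have hc : th m (-1 : Kˣ) * (x : GL chevG2.Idx K) = (x : GL chevG2.Idx K) * th m (-1 : Kˣ) :=
    (congrArg Subtype.val hxa).symm
  have hb : (x : GL chevG2.Idx K) * Phi fr g0 = Phi fr g0 * (x : GL chevG2.Idx K) :=
    congrArg Subtype.val hxb
  have hy_comm : ∀ y : S2 K, Phi fr y * Phi fr g0 = Phi fr g0 * Phi fr y → y * g0 = g0 * y := by
    intro y hy
    obtain ⟨ε, hε, hεy⟩ := comm_sign fr y g0 hy
    rcases hε with rfl | rfl
    · apply ext2
      · have h := (hεy 0).1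
        rwa [one_mul] at h
      · have h := (hεy 0).2
        rwa [one_mul] at h
      · have h := (hεy 1).1
        rwa [one_mul] at h
      · have h := (hεy 1).2
        rwa [one_mul] at h
    · exact absurd (tr_zero_of_anti g0 y h3 hεy) htr
  obtain ⟨y, hy | hy⟩ := (mem_M_iff fr _).mp (cent_mem_M hK fr _ x.2 hc)
  · refine ⟨1, y, hy_comm y (by rw [← hy]; exact hb), ?_⟩
    apply Subtype.ext
    rw [Psi_apply, map_one, one_mul]
    exact hy
  · refine ⟨Multiplicative.ofAdd 1, y, hy_comm y ?_, ?_⟩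
    · rw [hy] at hb
      have e : Phi fr g0 * (th m (-1 : Kˣ) * Phi fr y) =
          th m (-1 : Kˣ) * (Phi fr g0 * Phi fr y) := by
        rw [← mul_assoc, ← a_comm_Phi fr g0, mul_assoc]
      rw [e, mul_assoc] at hb
      exact mul_left_cancel hb
    · apply Subtype.ext
      rw [Psi_apply, zf_gen]
      exact hy

theorem pair_comm [Fintype K] {m : ℕ} (hK : Fintype.card K = 3 ^ (2 * m + 1)) (fr : Frob K m)
    (g0 : S2 K) (htr : tr2 g0 ≠ 0) (hb : g0 0 1 ≠ 0) (x1 x2 : ↥(twistedG2 K (3 ^ m)))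
    (h1a : x1 * aR fr = aR fr * x1) (h1b : x1 * PhiR fr g0 = PhiR fr g0 * x1)
    (h2a : x2 * aR fr = aR fr * x2) (h2b : x2 * PhiR fr g0 = PhiR fr g0 * x2) :
    x1 * x2 = x2 * x1 := by
  obtain ⟨i1, y1, hy1, rfl⟩ := pair_form hK fr g0 htr x1 h1a h1b
  obtain ⟨i2, y2, hy2, rfl⟩ := pair_form hK fr g0 htr x2 h2a h2b
  rw [← map_mul, ← map_mul]
  congr 1
  exact Prod.ext (mul_comm _ _) (comm_of_comm g0 y1 y2 hb hy1 hy2)

theorem pair_card [Fintype K] {m : ℕ} (hK : Fintype.card K = 3 ^ (2 * m + 1)) (fr : Frob K m)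
    (g0 : S2 K) (htr : tr2 g0 ≠ 0) (hirr : ∀ l : K, l * (tr2 g0 - l) ≠ 1) :
    Nat.card ↥(Subgroup.centralizer ({aR fr} : Set ↥(twistedG2 K (3 ^ m))) ⊓
      Subgroup.centralizer ({PhiR fr g0} : Set ↥(twistedG2 K (3 ^ m)))) = 3 ^ (2 * m + 1) + 1 := by
  have hodd : Fintype.card K % 2 = 1 := by
    rw [hK]
    exact Nat.odd_iff.mp (Odd.pow (by decide))
  have h2 : (2 : K) ≠ 0 := two_ne_zero_of_odd hodd
  obtain ⟨Ψc, hΨc⟩ : ∃ Ψc : M2 × ↥(Subgroup.centralizer ({g0} : Set (S2 K))) →*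
      ↥(twistedG2 K (3 ^ m)), ∀ (i : M2) (y : ↥(Subgroup.centralizer ({g0} : Set (S2 K)))),
        Ψc (i, y) = Psi fr (i, (y : S2 K)) :=
    ⟨(Psi fr).comp (MonoidHom.prodMap (MonoidHom.id M2)
      (Subgroup.centralizer ({g0} : Set (S2 K))).subtype), fun i y => rfl⟩
  have hrange : Ψc.range = Subgroup.centralizer ({aR fr} : Set ↥(twistedG2 K (3 ^ m))) ⊓
      Subgroup.centralizer ({PhiR fr g0} : Set ↥(twistedG2 K (3 ^ m))) := by
    ext x
    constructor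
    · rintro ⟨⟨i, y⟩, rfl⟩
      rw [Subgroup.mem_inf, Subgroup.mem_centralizer_singleton_iff,
        Subgroup.mem_centralizer_singleton_iff, hΨc]
      refine ⟨Psi_comm_a fr _, ?_⟩
      have e : PhiR fr g0 = Psi fr (1, g0) := by rw [Psi_apply, map_one, one_mul]
      rw [e, ← map_mul, ← map_mul]
      congr 1
      exact Prod.ext (mul_comm _ _) (Subgroup.mem_centralizer_singleton_iff.mp y.2)
    · intro hx
      rw [Subgroup.mem_inf, Subgroup.mem_centralizer_singleton_iff,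
        Subgroup.mem_centralizer_singleton_iff] at hx
      obtain ⟨i, y, hy, rfl⟩ := pair_form hK fr g0 htr x hx.1 hx.2
      exact ⟨(i, ⟨y, Subgroup.mem_centralizer_singleton_iff.mpr hy⟩), hΨc _ _⟩
  have hnegC : (negOne : S2 K) ∈ Subgroup.centralizer ({g0} : Set (S2 K)) := by
    rw [Subgroup.mem_centralizer_singleton_iff]
    exact (Subgroup.mem_center_iff.mp negOne_center g0).symm
  have hker : ∀ z : M2 × ↥(Subgroup.centralizer ({g0} : Set (S2 K))), z ∈ Ψc.ker →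
      z = 1 ∨ z = (1, ⟨negOne, hnegC⟩) := by
    rintro ⟨i, y⟩ hz
    rw [MonoidHom.mem_ker, hΨc, Psi_apply] at hz
    have hz' : ((zf (aR fr) (aR_sq fr) i : ↥(twistedG2 K (3 ^ m))) : GL chevG2.Idx K) *
        Phi fr (y : S2 K) = 1 := congrArg Subtype.val hz
    obtain ⟨h4, h5⟩ := key_inj fr _ (zf_val fr i) _ hz'
    have hi : i = 1 := zf_one_iff fr i h4
    subst hi
    rcases scalar_cases (y : S2 K) ((isScalarMat_iff _).mpr ((center_iff _).mp h5)) with h6 | h6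
    · left
      exact Prod.ext rfl (Subtype.ext h6)
    · right
      exact Prod.ext rfl (Subtype.ext h6)
  have hkc : Nat.card ↥Ψc.ker = 2 := by
    have h1 : (1 : M2 × ↥(Subgroup.centralizer ({g0} : Set (S2 K)))) ∈ Ψc.ker := one_mem _
    have hn : ((1, ⟨negOne, hnegC⟩) : M2 × ↥(Subgroup.centralizer ({g0} : Set (S2 K)))) ∈
        Ψc.ker := by
      rw [MonoidHom.mem_ker, hΨc, Psi_apply, map_one, one_mul]
      exact PhiR_center fr _ negOne_center
    rw [Nat.card_eq_two_iff]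
    refine ⟨⟨1, h1⟩, ⟨_, hn⟩, ?_, ?_⟩
    · intro e
      have e1 : (1 : S2 K) = negOne :=
        congrArg (fun z : ↥Ψc.ker =>
          (((z : M2 × ↥(Subgroup.centralizer ({g0} : Set (S2 K)))).2 : S2 K))) e
      exact negOne_ne_one h2 e1.symm
    · ext z
      simp only [Set.mem_insert_iff, Set.mem_singleton_iff, Set.mem_univ, iff_true]
      rcases hker z.1 z.2 with h | h
      · left
        exact Subtype.ext h
      · right
        exact Subtype.ext h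
  have hmul := Subgroup.card_mul_index Ψc.ker
  rw [Subgroup.index_ker, hkc, hrange, Nat.card_prod] at hmul
  have hM2 : Nat.card M2 = 2 := by
    rw [Nat.card_eq_fintype_card]
    rfl
  have hC0 : Nat.card ↥(Subgroup.centralizer ({g0} : Set (S2 K))) = Fintype.card K + 1 :=
    card_cent_sl2 hodd g0 hirr
  rw [hM2, hC0, hK] at hmul
  omega

theorem Yfacts [Fintype K] {m : ℕ} (hK : Fintype.card K = 3 ^ (2 * m + 1)) (fr : Frob K m)
    (p : ℕ) (hp : p.Prime) (hp2 : p ≠ 2) (hp3 : p ≠ 3) (hpq : ¬ p ∣ 3 ^ (2 * m + 1) - 1)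
    (b : ↥(twistedG2 K (3 ^ m))) (hb : orderOf b = p) (hbc : b * aR fr = aR fr * b) :
    (∀ x1 x2 : ↥(twistedG2 K (3 ^ m)), x1 * aR fr = aR fr * x1 → x1 * b = b * x1 →
      x2 * aR fr = aR fr * x2 → x2 * b = b * x2 → x1 * x2 = x2 * x1) ∧
    Nat.card ↥(Subgroup.centralizer ({aR fr} : Set ↥(twistedG2 K (3 ^ m))) ⊓
      Subgroup.centralizer ({b} : Set ↥(twistedG2 K (3 ^ m)))) = 3 ^ (2 * m + 1) + 1 := by
  have hbp : (b : GL chevG2.Idx K) ^ p = 1 := by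
    have h1 : b ^ p = 1 := by
      rw [← hb]
      exact pow_orderOf_eq_one b
    have h2 := congrArg Subtype.val h1
    rwa [Subgroup.coe_pow] at h2
  have hbne : (b : GL chevG2.Idx K) ≠ 1 := by
    intro h1
    have h2 : b = 1 := Subtype.ext h1
    rw [h2, orderOf_one] at hb
    exact hp.one_lt.ne hb
  obtain ⟨g0, hg0⟩ := ord_form hK fr p hp hp2 (b : GL chevG2.Idx K) b.2
    (congrArg Subtype.val hbc).symm hbp
  rw [hg0] at hbp hbne
  obtain ⟨htr, hirr, hb01⟩ := g0_props hK fr p hp hp2 hp3 hpq g0 hbne hbp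
  have hbe : b = PhiR fr g0 := Subtype.ext hg0
  rw [hbe]
  exact ⟨fun x1 x2 h1a h1b h2a h2b => pair_comm hK fr g0 htr hb01 x1 x2 h1a h1b h2a h2b,
    pair_card hK fr g0 htr hirr⟩

end

end Cfsg.Agent.Lib.Helper7.ReeTorE
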