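import Cfsg.Agent.Lib.Helper7.ReeTorE

set_option autoImplicit false
set_option maxHeartbeats 400000

namespace Cfsg.Agent.Lib.Helper7.ReeTorF
open Cfsg.Lie Cfsg.Agent.Lib.Helper7.ChevEngine Cfsg.Agent.Lib.Helper7.ChevTorus
  Cfsg.Agent.Lib.Helper7.ReeFix Cfsg.Agent.Lib.Helper7.ReeMain Cfsg.Agent.Lib.Helper7.ReeSg
  Cfsg.Agent.Lib.Helper7.ReeTorus Cfsg.Agent.Lib.Helper7.ReeTorMem Cfsg.Agent.Lib.Helper7.ReeOrder
  Cfsg.Agent.Lib.Helper7.ReeBN Cfsg.Agent.Lib.Helper7.ReePerf Cfsg.Agent.Lib.Helper7.ReeH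
  Cfsg.Agent.Lib.Helper7.ReeU Cfsg.Agent.Lib.Helper7.ReeFpf
  Cfsg.Agent.Lib.Helper7.ChevRel
  Cfsg.Agent.Lib.Helper7.ReeStab Cfsg.Agent.Lib.Helper7.SL2Hom
  Cfsg.Agent.Lib.Helper7.TwCore Cfsg.Agent.Lib.Helper7.ReeCent Cfsg.Agent.Lib.Helper7.ReeSyl2
  Cfsg.Agent.Lib.Helper7.ReeSyl Cfsg.Agent.Lib.Helper7.ChevBNP Cfsg.Agent.Lib.Helper7.ChevBN3
  Cfsg.Agent.Lib.Helper7.TorAbs Cfsg.Agent.Lib.Helper7.ReeTorA Cfsg.Agent.Lib.Helper7.ReeTorB
  Cfsg.Agent.Lib.Helper7.ReeTorC Cfsg.Agent.Lib.Helper7.ReeTorD Cfsg.Agent.Lib.Helper7.ReeTorE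

section abs

theorem fact2 (m : ℕ) (p : ℕ) (hp : p.Prime) (hp2 : p ≠ 2) (hpd : p ∣ 3 ^ (2 * m + 1) + 1) :
    (3 ^ (2 * m + 1) * (3 ^ (2 * m + 1) - 1) * (3 ^ (2 * m + 1) + 1)).factorization p =
      ((3 ^ (2 * m + 1)) ^ 3 * (3 ^ (2 * m + 1) - 1) * ((3 ^ (2 * m + 1)) ^ 3 + 1)).factorization p := by
  have h3q : 3 ∣ 3 ^ (2 * m + 1) := dvd_pow_self 3 (by omega)
  have hqpos : 0 < 3 ^ (2 * m + 1) := by positivity
  obtain ⟨q, hq⟩ : ∃ q : ℕ, q = 3 ^ (2 * m + 1) := ⟨_, rfl⟩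
  rw [← hq] at hpd h3q hqpos ⊢
  have hq3 : 3 ≤ q := Nat.le_of_dvd hqpos h3q
  have h1 : ¬ p ∣ q := by
    intro hd
    have h := (Nat.dvd_add_right hd).mp hpd
    exact hp.one_lt.ne' (Nat.dvd_one.mp h)
  have h2 : ¬ p ∣ q - 1 := by
    intro hd
    have h := Nat.dvd_sub hpd hd
    have e : q + 1 - (q - 1) = 2 := by omega
    rw [e] at h
    exact hp2 ((Nat.prime_dvd_prime_iff_eq hp Nat.prime_two).mp h)
  have h3 : ¬ p ∣ q * (q - 1) + 1 := by
    intro hd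
    have e : q * (q - 1) + 1 = (q + 1) * (q - 2) + 3 := by
      obtain ⟨r, rfl⟩ : ∃ r, q = r + 2 := ⟨q - 2, by omega⟩
      have e1 : r + 2 - 1 = r + 1 := by omega
      have e2 : r + 2 - 2 = r := by omega
      rw [e1, e2]
      ring
    rw [e] at hd
    have h := (Nat.dvd_add_right (Dvd.dvd.mul_right hpd _)).mp hd
    have hp3 : p = 3 := (Nat.prime_dvd_prime_iff_eq hp Nat.prime_three).mp h
    rw [hp3] at hpd
    have h' := (Nat.dvd_add_right h3q).mp hpd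
    norm_num at h'
  have e3 : q ^ 3 + 1 = (q + 1) * (q * (q - 1) + 1) := by
    obtain ⟨r, rfl⟩ : ∃ r, q = r + 1 := ⟨q - 1, by omega⟩
    have e1 : r + 1 - 1 = r := by omega
    rw [e1]
    ring
  have hne0 : q ≠ 0 := by omega
  have hne1 : q ^ 3 ≠ 0 := by positivity
  have hne2 : q - 1 ≠ 0 := by omega
  have hne3 : q + 1 ≠ 0 := by omega
  have hne4 : q * (q - 1) + 1 ≠ 0 := by omega
  rw [e3, Nat.factorization_mul (mul_ne_zero hne0 hne2) hne3, Nat.factorization_mul hne0 hne2,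
    Nat.factorization_mul (mul_ne_zero hne1 hne2) (mul_ne_zero hne3 hne4),
    Nat.factorization_mul hne1 hne2, Nat.factorization_mul hne3 hne4]
  simp only [Finsupp.add_apply]
  rw [Nat.factorization_eq_zero_of_not_dvd h1, Nat.factorization_eq_zero_of_not_dvd h2,
    Nat.factorization_eq_zero_of_not_dvd h3,
    Nat.factorization_eq_zero_of_not_dvd (fun hd => h1 (hp.dvd_of_dvd_pow hd))]
  omega

end abs

section
variable {K : Type*} [Field K]

theorem quarter_main [Fintype K] {m : ℕ} (hm : 1 ≤ m) (hK : Fintype.card K = 3 ^ (2 * m + 1))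
    (fr : Frob K m) (p : ℕ) (hp : p.Prime) (hp2 : p ≠ 2) (hp3 : p ≠ 3)
    (hpq : ¬ p ∣ 3 ^ (2 * m + 1) - 1) (a' : ↥(twistedG2 K (3 ^ m))) (ha : orderOf a' = p)
    (hac : a' * aR fr = aR fr * a') :
    (∀ x y : ↥(twistedG2 K (3 ^ m)), x * a' = a' * x → y * a' = a' * y → x * y = y * x) ∧
      Nat.card ↥(Subgroup.centralizer ({a'} : Set ↥(twistedG2 K (3 ^ m)))) = 3 ^ (2 * m + 1) + 1 := by
  obtain ⟨hYab, hYc⟩ := Yfacts hK fr p hp hp2 hp3 hpq a' ha hac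
  have h4 : 4 ∣ Nat.card ↥(Subgroup.centralizer ({a'} : Set ↥(twistedG2 K (3 ^ m)))) := by
    have hle : Subgroup.centralizer ({aR fr} : Set ↥(twistedG2 K (3 ^ m))) ⊓
        Subgroup.centralizer ({a'} : Set ↥(twistedG2 K (3 ^ m))) ≤
        Subgroup.centralizer ({a'} : Set ↥(twistedG2 K (3 ^ m))) := inf_le_right
    have hd := Subgroup.card_dvd_of_le hle
    rw [hYc] at hd
    refine Dvd.dvd.trans ?_ hd
    have h9 : 3 ^ (2 * m + 1) % 4 = 3 := by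
      rw [pow_succ, pow_mul, Nat.mul_mod, Nat.pow_mod]
      norm_num
    exact Nat.dvd_of_mod_eq_zero (by omega)
  have H1 : ∀ t : ↥(Subgroup.centralizer ({a'} : Set ↥(twistedG2 K (3 ^ m)))), t ≠ 1 → t * t = 1 →
      ∀ x y : ↥(Subgroup.centralizer ({a'} : Set ↥(twistedG2 K (3 ^ m)))),
        x * t = t * x → y * t = t * y → x * y = y * x := by
    intro t ht1 ht2 x y hx hy
    have ht1' : (t : ↥(twistedG2 K (3 ^ m))) ≠ 1 := fun h => ht1 (Subtype.ext h)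
    have ht2' : (t : ↥(twistedG2 K (3 ^ m))) * (t : ↥(twistedG2 K (3 ^ m))) = 1 :=
      congrArg Subtype.val ht2
    obtain ⟨g, hg⟩ := all_inv hm hK fr (t : ↥(twistedG2 K (3 ^ m))) ht1' ht2'
    have hbo : orderOf (g⁻¹ * a' * g) = p := by rw [orderOf_conj', ha]
    have hta : (t : ↥(twistedG2 K (3 ^ m))) * a' = a' * (t : ↥(twistedG2 K (3 ^ m))) :=
      Subgroup.mem_centralizer_singleton_iff.mp t.2
    have hbc : (g⁻¹ * a' * g) * aR fr = aR fr * (g⁻¹ * a' * g) := by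
      rw [← hg]
      exact conj_comm g a' (t : ↥(twistedG2 K (3 ^ m))) hta.symm
    obtain ⟨hYab', -⟩ := Yfacts hK fr p hp hp2 hp3 hpq (g⁻¹ * a' * g) hbo hbc
    have hxa : (x : ↥(twistedG2 K (3 ^ m))) * a' = a' * (x : ↥(twistedG2 K (3 ^ m))) :=
      Subgroup.mem_centralizer_singleton_iff.mp x.2
    have hya : (y : ↥(twistedG2 K (3 ^ m))) * a' = a' * (y : ↥(twistedG2 K (3 ^ m))) :=
      Subgroup.mem_centralizer_singleton_iff.mp y.2
    have hxt : (x : ↥(twistedG2 K (3 ^ m))) * (t : ↥(twistedG2 K (3 ^ m))) =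
        (t : ↥(twistedG2 K (3 ^ m))) * (x : ↥(twistedG2 K (3 ^ m))) := congrArg Subtype.val hx
    have hyt : (y : ↥(twistedG2 K (3 ^ m))) * (t : ↥(twistedG2 K (3 ^ m))) =
        (t : ↥(twistedG2 K (3 ^ m))) * (y : ↥(twistedG2 K (3 ^ m))) := congrArg Subtype.val hy
    have e := hYab' (g⁻¹ * (x : ↥(twistedG2 K (3 ^ m))) * g) (g⁻¹ * (y : ↥(twistedG2 K (3 ^ m))) * g)
      (by rw [← hg]; exact conj_comm g _ _ hxt) (conj_comm g _ _ hxa)
      (by rw [← hg]; exact conj_comm g _ _ hyt) (conj_comm g _ _ hya)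
    exact Subtype.ext (conj_comm' g _ _ e)
  have H3 : ∀ x : ↥(Subgroup.centralizer ({a'} : Set ↥(twistedG2 K (3 ^ m)))), orderOf x ≠ 3 := by
    intro x hx
    have hx' : orderOf (x : ↥(twistedG2 K (3 ^ m))) = 3 := by
      rw [Subgroup.orderOf_coe]
      exact hx
    exact no3 hK p hp hp3 hpq a' (x : ↥(twistedG2 K (3 ^ m))) ha hx'
      (Subgroup.mem_centralizer_singleton_iff.mp x.2)
  obtain ⟨P⟩ : Nonempty (Sylow 2 ↥(Subgroup.centralizer ({a'} : Set ↥(twistedG2 K (3 ^ m))))) :=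
    inferInstance
  obtain ⟨hP4, hP2⟩ := syl2_of_cent hm hK p hp hp2 a' ha h4 P
  have hab := comm_of_four H1 P hP4 hP2 H3
  have hab' : ∀ x y : ↥(twistedG2 K (3 ^ m)), x * a' = a' * x → y * a' = a' * y →
      x * y = y * x := by
    intro x y hx hy
    have e := hab ⟨x, Subgroup.mem_centralizer_singleton_iff.mpr hx⟩
      ⟨y, Subgroup.mem_centralizer_singleton_iff.mpr hy⟩
    exact congrArg Subtype.val e
  refine ⟨hab', ?_⟩
  have hEq : Subgroup.centralizer ({aR fr} : Set ↥(twistedG2 K (3 ^ m))) ⊓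
      Subgroup.centralizer ({a'} : Set ↥(twistedG2 K (3 ^ m))) =
      Subgroup.centralizer ({a'} : Set ↥(twistedG2 K (3 ^ m))) := by
    apply le_antisymm inf_le_right
    intro x hx
    have hxa := Subgroup.mem_centralizer_singleton_iff.mp hx
    exact Subgroup.mem_inf.mpr
      ⟨Subgroup.mem_centralizer_singleton_iff.mpr (hab' x (aR fr) hxa hac.symm), hx⟩
  rw [← hEq]
  exact hYc

theorem card_cent_a [Fintype K] {m : ℕ} (hK : Fintype.card K = 3 ^ (2 * m + 1)) (fr : Frob K m) :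
    Nat.card ↥(Subgroup.centralizer ({aR fr} : Set ↥(twistedG2 K (3 ^ m)))) =
      3 ^ (2 * m + 1) * (3 ^ (2 * m + 1) - 1) * (3 ^ (2 * m + 1) + 1) := by
  obtain ⟨e⟩ := cent_iso hK (aR fr) (th_memH m (-1)) (aR_ne fr) (aR_sq fr)
  rw [Nat.card_congr e.toEquiv, Nat.card_prod]
  have hM2 : Nat.card (Multiplicative (ZMod 2)) = 2 := by
    rw [Nat.card_eq_fintype_card]
    rfl
  rw [hM2]
  exact Cfsg.Agent.S0276.two_mul_card_PSL2 hK (Odd.pow (by decide))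

theorem quarter_gen [Fintype K] {m : ℕ} (hm : 1 ≤ m) (hK : Fintype.card K = 3 ^ (2 * m + 1))
    (p : ℕ) (hp : p.Prime) (hp2 : p ≠ 2) (hpd : p ∣ 3 ^ (2 * m + 1) + 1)
    (a : ↥(twistedG2 K (3 ^ m))) (ha : orderOf a = p) :
    (∀ x y : ↥(twistedG2 K (3 ^ m)), x * a = a * x → y * a = a * y → x * y = y * x) ∧
      Nat.card ↥(Subgroup.centralizer ({a} : Set ↥(twistedG2 K (3 ^ m)))) = 3 ^ (2 * m + 1) + 1 := by
  have fr := frob_of_card hK
  haveI : Fact p.Prime := ⟨hp⟩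
  have h3q : 3 ∣ 3 ^ (2 * m + 1) := dvd_pow_self 3 (by omega)
  have hq1 : 1 ≤ 3 ^ (2 * m + 1) := Nat.one_le_pow _ _ (by norm_num)
  have hp3 : p ≠ 3 := by
    rintro rfl
    have h := (Nat.dvd_add_right h3q).mp hpd
    norm_num at h
  have hpq : ¬ p ∣ 3 ^ (2 * m + 1) - 1 := by
    intro hd
    have h := Nat.dvd_sub hpd hd
    have e : 3 ^ (2 * m + 1) + 1 - (3 ^ (2 * m + 1) - 1) = 2 := by omega
    rw [e] at h
    exact hp2 ((Nat.prime_dvd_prime_iff_eq hp Nat.prime_two).mp h)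
  have hL : (Nat.card ↥(Subgroup.centralizer ({aR fr} : Set ↥(twistedG2 K (3 ^ m))))).factorization p =
      (Nat.card ↥(twistedG2 K (3 ^ m))).factorization p := by
    rw [card_cent_a hK fr, card_ree hK]
    exact fact2 m p hp hp2 hpd
  obtain ⟨g, hg⟩ := syl_conj p _ hL a ha
  have hac : (g⁻¹ * a * g) * aR fr = aR fr * (g⁻¹ * a * g) :=
    Subgroup.mem_centralizer_singleton_iff.mp hg
  obtain ⟨hab, hc⟩ := quarter_main hm hK fr p hp hp2 hp3 hpq (g⁻¹ * a * g)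
    (by rw [orderOf_conj', ha]) hac
  refine ⟨?_, ?_⟩
  · intro x y hx hy
    exact conj_comm' g x y (hab _ _ (conj_comm g x a hx) (conj_comm g y a hy))
  · rw [← card_cent_conj g a]
    exact hc

theorem no4 [Fintype K] {m : ℕ} (hK : Fintype.card K = 3 ^ (2 * m + 1))
    (x : ↥(twistedG2 K (3 ^ m))) : orderOf x ≠ 4 := by
  intro h4
  have hP : IsPGroup 2 (Subgroup.zpowers x) :=
    IsPGroup.of_card (n := 2) (by rw [Nat.card_zpowers, h4]; norm_num)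
  obtain ⟨S, hS⟩ := hP.exists_le_sylow
  have h1 := syl2_exp hK S x (hS (Subgroup.mem_zpowers x))
  have hd := orderOf_dvd_of_pow_eq_one (show x ^ 2 = 1 by rw [pow_two]; exact h1)
  rw [h4] at hd
  norm_num at hd

theorem part2 [Fintype K] {m : ℕ} (hm : 1 ≤ m) (hK : Fintype.card K = 3 ^ (2 * m + 1))
    (H : Subgroup ↥(twistedG2 K (3 ^ m))) (hH : IsCyclic H)
    (hHc : Nat.card H = (3 ^ (2 * m + 1) + 1) / 4) :
    IsMulCommutative ↥(Subgroup.centralizer (H : Set ↥(twistedG2 K (3 ^ m)))) ∧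
      Nat.card ↥(Subgroup.centralizer (H : Set ↥(twistedG2 K (3 ^ m)))) = 3 ^ (2 * m + 1) + 1 ∧
      (∀ x ∈ Subgroup.centralizer (H : Set ↥(twistedG2 K (3 ^ m))), orderOf x ≠ 4) ∧
      ∀ A : Subgroup ↥(twistedG2 K (3 ^ m)), A ≤ H → A ≠ ⊥ →
        Subgroup.centralizer (A : Set ↥(twistedG2 K (3 ^ m))) =
          Subgroup.centralizer (H : Set ↥(twistedG2 K (3 ^ m))) := by
  have hHab := cyc_comm H hH
  obtain ⟨k, hk⟩ : ∃ k, 3 ^ (2 * m + 1) = 8 * k + 3 := by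
    have h9 : 3 ^ (2 * m + 1) % 8 = 3 := by
      rw [pow_succ, pow_mul, Nat.mul_mod, Nat.pow_mod]
      norm_num
    exact ⟨3 ^ (2 * m + 1) / 8, by omega⟩
  have hquart : (3 ^ (2 * m + 1) + 1) / 4 = 2 * k + 1 := by omega
  have key : ∀ A : Subgroup ↥(twistedG2 K (3 ^ m)), A ≤ H → A ≠ ⊥ → ∃ a ∈ A,
      (∀ x y : ↥(twistedG2 K (3 ^ m)), x * a = a * x → y * a = a * y → x * y = y * x) ∧
      Nat.card ↥(Subgroup.centralizer ({a} : Set ↥(twistedG2 K (3 ^ m)))) = 3 ^ (2 * m + 1) + 1 := by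
    intro A hAH hA
    obtain ⟨p, hp, hpd, a, haA, ha⟩ := exists_prime_elt A hA
    have hpH : p ∣ 2 * k + 1 := by
      rw [← hquart, ← hHc]
      exact hpd.trans (Subgroup.card_dvd_of_le hAH)
    have hp2 : p ≠ 2 := by
      rintro rfl
      omega
    have hpq : p ∣ 3 ^ (2 * m + 1) + 1 := by
      have e : 3 ^ (2 * m + 1) + 1 = (2 * k + 1) * 4 := by omega
      rw [e]
      exact Dvd.dvd.mul_right hpH _
    exact ⟨a, haA, quarter_gen hm hK p hp hp2 hpq a ha⟩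
  have hHne : H ≠ ⊥ := by
    intro hb
    rw [hb, Subgroup.card_bot, hquart] at hHc
    have h27 : 3 ^ (2 * 1 + 1) ≤ 3 ^ (2 * m + 1) := Nat.pow_le_pow_right (by norm_num) (by omega)
    norm_num at h27
    omega
  obtain ⟨a, haH, hab, hcard⟩ := key H le_rfl hHne
  have hcH : Subgroup.centralizer (H : Set ↥(twistedG2 K (3 ^ m))) = Subgroup.centralizer {a} :=
    cent_chain H hHab a haH hab H le_rfl haH
  refine ⟨?_, ?_, ?_, ?_⟩
  · rw [hcH]
    exact ⟨⟨fun x y => Subtype.ext (hab x.1 y.1 (Subgroup.mem_centralizer_singleton_iff.mp x.2)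
      (Subgroup.mem_centralizer_singleton_iff.mp y.2))⟩⟩
  · rw [hcH]
    exact hcard
  · intro x _
    exact no4 hK x
  · intro A hAH hA
    obtain ⟨a', ha'A, hab', -⟩ := key A hAH hA
    rw [cent_chain H hHab a' (hAH ha'A) hab' A hAH ha'A,
      cent_chain H hHab a' (hAH ha'A) hab' H le_rfl (hAH ha'A)]

end

end Cfsg.Agent.Lib.Helper7.ReeTorF
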